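import Cfsg.Agent.Lib.MinDegSL.Level

/-! The two instances of a level: inside `SL (m+1)` and inside `GL (m+1)`. -/

set_option autoImplicit false

namespace Cfsg.Agent.Lib.MinDegSL

open Matrix
open Cfsg.Agent.Lib.Forms

universe u

variable {F : Type u} [Field F] {m : ℕ}

/-- The block matrix `[[A, v], [0, e]]`. -/
def blk (A : Matrix (Fin m) (Fin m) F) (v : Fin m → F) (e : F) :
    Matrix (Fin (m + 1)) (Fin (m + 1)) F :=
  Matrix.of fun i j =>
    Fin.lastCases (Fin.lastCases e (fun _ => 0) j) (fun i' => Fin.lastCases (v i') (fun j' => A i' j') j) i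

theorem blk_cc (A : Matrix (Fin m) (Fin m) F) (v : Fin m → F) (e : F) (i j : Fin m) :
    blk A v e i.castSucc j.castSucc = A i j := by simp [blk]

theorem blk_cl (A : Matrix (Fin m) (Fin m) F) (v : Fin m → F) (e : F) (i : Fin m) :
    blk A v e i.castSucc (Fin.last m) = v i := by simp [blk]

theorem blk_lc (A : Matrix (Fin m) (Fin m) F) (v : Fin m → F) (e : F) (j : Fin m) :
    blk A v e (Fin.last m) j.castSucc = 0 := by simp [blk]

theorem blk_ll (A : Matrix (Fin m) (Fin m) F) (v : Fin m → F) (e : F) :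
    blk A v e (Fin.last m) (Fin.last m) = e := by simp [blk]

theorem blk_mul (A B : Matrix (Fin m) (Fin m) F) (v w : Fin m → F) (e d : F) :
    blk A v e * blk B w d = blk (A * B) (A *ᵥ w + d • v) (e * d) := by
  ext i j
  induction i using Fin.lastCases with
  | last =>
    induction j using Fin.lastCases with
    | last => simp [mul_apply, Fin.sum_univ_castSucc, blk_lc, blk_ll]
    | cast j => simp [mul_apply, Fin.sum_univ_castSucc, blk_lc]
  | cast i =>
    induction j using Fin.lastCases with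
    | last =>
      simp [mul_apply, Fin.sum_univ_castSucc, blk_cc, blk_cl, blk_ll, mulVec, dotProduct, mul_comm d]
    | cast j => simp [mul_apply, Fin.sum_univ_castSucc, blk_cc, blk_lc]

theorem blk_one : blk (1 : Matrix (Fin m) (Fin m) F) 0 1 = 1 := by
  ext i j
  induction i using Fin.lastCases <;> induction j using Fin.lastCases <;>
    simp [blk_cc, blk_cl, blk_lc, blk_ll, one_apply, (Fin.castSucc_lt_last _).ne']

theorem det_blk (A : Matrix (Fin m) (Fin m) F) (v : Fin m → F) (e : F) :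
    (blk A v e).det = A.det * e := by
  rw [det_succ_row _ (Fin.last m), Fin.sum_univ_castSucc]
  have : ((blk A v e).submatrix (Fin.last m).succAbove (Fin.last m).succAbove) = A := by
    ext i j
    simp [blk_cc]
  rw [Fin.succAbove_last] at this
  simp [blk_lc, blk_ll, this, mul_comm]

/-- The extension of a vector by zero. -/
def ext0 (v : Fin m → F) : Fin (m + 1) → F := Fin.snoc v 0

/-- The last coordinate vector. -/
def eLast (m : ℕ) : Fin (m + 1) → F := Pi.single (Fin.last m) 1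

theorem ext0_dot (a b : Fin m → F) : ext0 a ⬝ᵥ ext0 b = a ⬝ᵥ b := by
  simp [ext0, dotProduct, Fin.sum_univ_castSucc]

theorem eLast_dot_ext0 (a : Fin m → F) : eLast (F := F) m ⬝ᵥ ext0 a = 0 := by
  simp [eLast, ext0]

theorem ext0_dot_eLast (a : Fin m → F) : ext0 a ⬝ᵥ eLast (F := F) m = 0 := by
  simp [eLast, ext0]

theorem blk_x (v : Fin m → F) : blk 1 v 1 = tvMat (ext0 v) (eLast (F := F) m) := by
  ext i j
  induction i using Fin.lastCases <;> induction j using Fin.lastCases <;>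
    simp [blk_cc, blk_cl, blk_lc, blk_ll, one_apply, tvMat, ext0, eLast, vecMulVec_apply, (Fin.castSucc_lt_last _).ne']

theorem blk_tv {a φ : Fin m → F} (h : φ ⬝ᵥ a = 0) :
    blk ((tv a φ : GL (Fin m) F) : Matrix (Fin m) (Fin m) F) 0 1 = tvMat (ext0 a) (ext0 φ) := by
  rw [tv_val h]
  ext i j
  induction i using Fin.lastCases <;> induction j using Fin.lastCases <;>
    simp [blk_cc, blk_cl, blk_lc, blk_ll, one_apply, tvMat, ext0, vecMulVec_apply, (Fin.castSucc_lt_last _).ne']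

/-- The element of `GL (m+1)` of a block matrix. -/
noncomputable def glBlk (A : GL (Fin m) F) (v : Fin m → F) (e : Fˣ) : GL (Fin (m + 1)) F :=
  Matrix.GeneralLinearGroup.mkOfDetNeZero (blk A v e) (by
    rw [det_blk]
    exact mul_ne_zero (by
      have := (Matrix.GeneralLinearGroup.det A).ne_zero
      simpa using this) e.ne_zero)

theorem glBlk_val (A : GL (Fin m) F) (v : Fin m → F) (e : Fˣ) :
    ((glBlk A v e : GL (Fin (m + 1)) F) : Matrix (Fin (m + 1)) (Fin (m + 1)) F) =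
      blk (A : Matrix (Fin m) (Fin m) F) v (e : F) := rfl

theorem glBlk_x (v : Fin m → F) : glBlk 1 v 1 = tv (ext0 v) (eLast (F := F) m) := by
  apply Units.ext
  rw [glBlk_val, tv_val (eLast_dot_ext0 v), Units.val_one, Units.val_one, blk_x]

theorem glBlk_tv {a φ : Fin m → F} (h : φ ⬝ᵥ a = 0) :
    glBlk (tv a φ) 0 1 = tv (ext0 a) (ext0 φ) := by
  apply Units.ext
  rw [glBlk_val, tv_val (show ext0 φ ⬝ᵥ ext0 a = 0 by rw [ext0_dot, h]), Units.val_one, blk_tv h]

/-- Conjugating elements of determinant one from a radical element to a transvection. -/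
theorem exists_conj {a φ v : Fin m → F} (hm : 2 ≤ m) (ha : a ≠ 0) (hφ : φ ≠ 0) (h : φ ⬝ᵥ a = 0)
    (hv : v ≠ 0) : ∃ g : GL (Fin (m + 1)) F, (g : Matrix (Fin (m + 1)) (Fin (m + 1)) F).det = 1 ∧
      g * glBlk 1 v 1 * g⁻¹ = glBlk (tv a φ) 0 1 := by
  obtain ⟨A, hA⟩ := CrossChar.sl_transitive hm v a hv ha
  set g0 := glBlk (Matrix.SpecialLinearGroup.toGL A) 0 1 with hg0
  have e0 : g0 * glBlk 1 v 1 * g0⁻¹ = glBlk 1 a 1 := by
    rw [mul_inv_eq_iff_eq_mul]
    apply Units.ext
    simp only [hg0, Units.val_mul, glBlk_val, blk_mul]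
    simp [hA]
  obtain ⟨k, hk⟩ := Function.ne_iff.1 hφ
  simp only [Pi.zero_apply] at hk
  set c : Fin m → F := Pi.single k (φ k)⁻¹
  have hc : φ ⬝ᵥ c = 1 := by simp [c, hk]
  have hb : ext0 φ ⬝ᵥ ext0 a = 0 := by rw [ext0_dot, h]
  have h1 : ext0 φ ⬝ᵥ (-eLast m) = 0 := by rw [dotProduct_neg, ext0_dot_eLast, neg_zero]
  have hl : eLast m ⬝ᵥ (-eLast m) = (-1 : F) := by simp [eLast]
  have e1 : tv (-eLast m) (ext0 φ) * tv (ext0 a) (eLast m) * (tv (-eLast m) (ext0 φ))⁻¹ =
      tv (ext0 a) (eLast m + ext0 φ) := by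
    rw [tv_conj_tv h1 (eLast_dot_ext0 a), hb, zero_smul, add_zero, hl, neg_smul, one_smul,
      sub_neg_eq_add]
  have h2 : eLast m ⬝ᵥ ext0 c = (0 : F) := eLast_dot_ext0 c
  have hψ : (eLast m + ext0 φ) ⬝ᵥ ext0 a = 0 := by rw [add_dotProduct, eLast_dot_ext0, hb, add_zero]
  have e2 : tv (ext0 c) (eLast m) * tv (ext0 a) (eLast m + ext0 φ) * (tv (ext0 c) (eLast m))⁻¹ =
      tv (ext0 a) (ext0 φ) := by
    rw [tv_conj_tv h2 hψ, eLast_dot_ext0, zero_smul, add_zero, add_dotProduct, h2, ext0_dot, hc,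
      zero_add, one_smul, add_sub_cancel_left]
  refine ⟨tv (ext0 c) (eLast m) * (tv (-eLast m) (ext0 φ) * g0), ?_, ?_⟩
  · simp [tv_det, hg0, glBlk_val, det_blk]
  · rw [glBlk_tv h, ← e2, ← e1, ← glBlk_x a, ← e0]
    group

/-- The embedding of the Levi pairs. -/
noncomputable def levGL (m : ℕ) : (GL (Fin m) F × Fˣ) →* GL (Fin (m + 1)) F where
  toFun h := glBlk h.1 0 h.2
  map_one' := Units.ext (by simp [glBlk_val, blk_one])
  map_mul' h k := Units.ext (by simp [glBlk_val, blk_mul])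

theorem levGL_conj (h : GL (Fin m) F × Fˣ) (v : Fin m → F) :
    levGL m h * glBlk 1 v 1 =
      glBlk 1 (((h.2⁻¹ : Fˣ) : F) • ((h.1 : Matrix (Fin m) (Fin m) F) *ᵥ v)) 1 * levGL m h := by
  apply Units.ext
  simp [levGL, glBlk_val, blk_mul, smul_smul]

theorem glBlk_add (v w : Fin m → F) : glBlk 1 (v + w) 1 = glBlk 1 v 1 * glBlk 1 w 1 := by
  apply Units.ext
  simp [glBlk_val, blk_mul, add_comm]

/-- The level inside the general linear group. -/
noncomputable def levelGL (F : Type u) [Field F] (m : ℕ) (hm : 2 ≤ m) :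
    Level F (GL (Fin (m + 1)) F) m where
  H := ⊤
  lev := (levGL m).comp (Subgroup.subtype _)
  x v := glBlk 1 v 1
  x_add := glBlk_add
  conj h v := levGL_conj h.1 v
  tv_mem _ _ := trivial
  sl_mem _ := trivial
  conj_tv a φ ha hφ h v hv := by
    obtain ⟨g, -, hg⟩ := exists_conj hm ha hφ h hv
    exact isConj_iff.2 ⟨g, hg⟩

/-- The pairs of determinant one. -/
noncomputable def detOne (F : Type u) [Field F] (m : ℕ) : Subgroup (GL (Fin m) F × Fˣ) :=
  MonoidHom.ker
    (((Matrix.GeneralLinearGroup.det : GL (Fin m) F →* Fˣ).comp (MonoidHom.fst (GL (Fin m) F) Fˣ)) *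
      MonoidHom.snd (GL (Fin m) F) Fˣ)

theorem mem_detOne {h : GL (Fin m) F × Fˣ} :
    h ∈ detOne F m ↔ (h.1 : Matrix (Fin m) (Fin m) F).det * (h.2 : F) = 1 := by
  simp [detOne, MonoidHom.mem_ker, Units.ext_iff]

theorem sl_mem_detOne (A : Matrix.SpecialLinearGroup (Fin m) F) :
    ((Matrix.SpecialLinearGroup.toGL A, 1) : GL (Fin m) F × Fˣ) ∈ detOne F m :=
  mem_detOne.2 (by simp)

theorem tv_mem_detOne (a φ : Fin m → F) : ((tv a φ, 1) : GL (Fin m) F × Fˣ) ∈ detOne F m :=
  mem_detOne.2 (by simp [tv_det])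

/-- The element of `SL (m+1)` of a block matrix. -/
def slBlk (A : Matrix (Fin m) (Fin m) F) (v : Fin m → F) (e : F) (h : A.det * e = 1) :
    Matrix.SpecialLinearGroup (Fin (m + 1)) F := ⟨blk A v e, by rw [det_blk, h]⟩

theorem slBlk_coe (A : Matrix (Fin m) (Fin m) F) (v : Fin m → F) (e : F) (h : A.det * e = 1) :
    ((slBlk A v e h : Matrix.SpecialLinearGroup (Fin (m + 1)) F) : Matrix (Fin (m + 1)) (Fin (m + 1)) F) =
      blk A v e := rfl

/-- The embedding of the Levi pairs of determinant one. -/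
def levSL (F : Type u) [Field F] (m : ℕ) :
    detOne F m →* Matrix.SpecialLinearGroup (Fin (m + 1)) F where
  toFun h := slBlk (h.1.1 : Matrix (Fin m) (Fin m) F) 0 (h.1.2 : F) (mem_detOne.1 h.2)
  map_one' := Subtype.ext (by simp [slBlk_coe, blk_one])
  map_mul' h k := Subtype.ext (by simp [slBlk_coe, blk_mul, Matrix.SpecialLinearGroup.coe_mul])

theorem levSL_coe (h : detOne F m) :
    ((levSL F m h : Matrix.SpecialLinearGroup (Fin (m + 1)) F) : Matrix (Fin (m + 1)) (Fin (m + 1)) F) =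
      blk (h.1.1 : Matrix (Fin m) (Fin m) F) 0 (h.1.2 : F) := rfl

/-- The level inside the special linear group. -/
noncomputable def levelSL (F : Type u) [Field F] (m : ℕ) (hm : 2 ≤ m) :
    Level F (Matrix.SpecialLinearGroup (Fin (m + 1)) F) m where
  H := detOne F m
  lev := levSL F m
  x v := slBlk 1 v 1 (by simp)
  x_add v w := Subtype.ext (by simp [slBlk_coe, blk_mul, Matrix.SpecialLinearGroup.coe_mul, add_comm])
  conj h v := Subtype.ext (by simp [slBlk_coe, levSL_coe, blk_mul, Matrix.SpecialLinearGroup.coe_mul, smul_smul])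
  tv_mem := tv_mem_detOne
  sl_mem := sl_mem_detOne
  conj_tv a φ ha hφ h v hv := by
    obtain ⟨g, hg1, hg⟩ := exists_conj hm ha hφ h hv
    let gs : Matrix.SpecialLinearGroup (Fin (m + 1)) F := ⟨g, hg1⟩
    refine isConj_iff.2 ⟨gs, mul_inv_eq_iff_eq_mul.2 (Subtype.ext ?_)⟩
    rw [mul_inv_eq_iff_eq_mul] at hg
    have := congrArg (fun z : GL (Fin (m + 1)) F => (z : Matrix (Fin (m + 1)) (Fin (m + 1)) F)) hg
    rw [Matrix.SpecialLinearGroup.coe_mul, Matrix.SpecialLinearGroup.coe_mul, slBlk_coe, levSL_coe]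
    simpa [glBlk_val] using this

end Cfsg.Agent.Lib.MinDegSL
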