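import Mathlib.NumberTheory.LegendreSymbol.Complex
import Mathlib.RepresentationTheory.Character
import Mathlib.Analysis.Complex.Basic
import Mathlib.LinearAlgebra.Trace

/-!
Decomposition of a complex representation under an elementary abelian subgroup given as the image
of the coordinate space `Fin m → F` of a finite field.
-/

set_option autoImplicit false

namespace Cfsg.Agent.Lib.MinDegSL

open Matrix Module

universe u v w

variable {F : Type u} [Field F] [Fintype F]

/-- A fixed primitive additive character. -/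
noncomputable def psi (F : Type u) [Field F] [Fintype F] : AddChar F ℂ :=
  AddChar.FiniteField.primitiveChar_to_Complex F

theorem psi_exists_ne_one : ∃ a : F, psi F a ≠ 1 := by
  by_contra h
  push Not at h
  have hp := AddChar.FiniteField.primitiveChar_to_Complex_isPrimitive F
  have h1 := hp (one_ne_zero (α := F))
  apply h1
  rw [AddChar.mulShift_one]
  exact DFunLike.ext _ _ fun a => by rw [AddChar.one_apply]; exact h a

/-- The number of vectors. -/
theorem card_vec (m : ℕ) [DecidableEq F] : Fintype.card (Fin m → F) = Fintype.card F ^ m := by simp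

theorem qm_ne (m : ℕ) : ((Fintype.card F : ℂ) ^ m) ≠ 0 :=
  pow_ne_zero _ (Nat.cast_ne_zero.2 Fintype.card_ne_zero)

theorem sum_psi [DecidableEq F] {m : ℕ} (f : Fin m → F) :
    ∑ v : Fin m → F, psi F (f ⬝ᵥ v) = if f = 0 then (Fintype.card F : ℂ) ^ m else 0 := by
  split_ifs with h
  · subst h; simp
  · obtain ⟨j, hj⟩ := Function.ne_iff.1 h
    simp only [Pi.zero_apply] at hj
    obtain ⟨a, ha⟩ := psi_exists_ne_one (F := F)
    set w : Fin m → F := Pi.single j (a / f j)
    have hw : f ⬝ᵥ w = a := by simp [w, mul_div_cancel₀ _ hj]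
    set S := ∑ v : Fin m → F, psi F (f ⬝ᵥ v)
    have hS : psi F a * S = S := by
      rw [Finset.mul_sum]
      refine Fintype.sum_equiv (Equiv.addLeft w) _ _ fun v => ?_
      simp only [Equiv.coe_addLeft, dotProduct_add, hw, AddChar.map_add_eq_mul]
    rcases mul_eq_zero.1 (show (psi F a - 1) * S = 0 by rw [sub_mul, hS, one_mul, sub_self]) with h1 | h1
    · exact absurd (sub_eq_zero.1 h1) ha
    · exact h1

variable {Γ : Type w} [Group Γ] {m : ℕ} {V : Type v} [AddCommGroup V] [Module ℂ V]
variable (ρ : Representation ℂ Γ V) (x : (Fin m → F) → Γ)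

/-- The projection on the eigenspace of a functional. -/
noncomputable def proj [DecidableEq F] (f : Fin m → F) : Module.End ℂ V :=
  ((Fintype.card F : ℂ) ^ m)⁻¹ • ∑ v : Fin m → F, psi F (-(f ⬝ᵥ v)) • ρ (x v)

/-- The multiplicity of a functional. -/
noncomputable def mult [DecidableEq F] (f : Fin m → F) : ℕ :=
  finrank ℂ (LinearMap.range (proj ρ x f))

variable {ρ x}

theorem x_zero (hx : ∀ a b, x (a + b) = x a * x b) : x 0 = 1 := by
  have := hx 0 0
  rw [add_zero] at this
  exact mul_eq_left.1 this.symm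

variable [DecidableEq F]

theorem rho_mul_proj (hx : ∀ a b, x (a + b) = x a * x b) (f w : Fin m → F) :
    ρ (x w) * proj ρ x f = psi F (f ⬝ᵥ w) • proj ρ x f := by
  rw [proj, mul_smul_comm, smul_comm]
  congr 1
  rw [Finset.mul_sum, Finset.smul_sum]
  refine Fintype.sum_equiv (Equiv.addLeft w) _ _ fun v => ?_
  simp only [Equiv.coe_addLeft, mul_smul_comm, ← map_mul, ← hx, smul_smul, ← AddChar.map_add_eq_mul,
    dotProduct_add]
  congr 2
  ring

theorem proj_mul_proj (hx : ∀ a b, x (a + b) = x a * x b) (f g : Fin m → F) :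
    proj ρ x g * proj ρ x f = if g = f then proj ρ x f else 0 := by
  conv_lhs => rw [proj, smul_mul_assoc, Finset.sum_mul]
  simp only [smul_mul_assoc, rho_mul_proj hx, smul_smul, ← AddChar.map_add_eq_mul]
  rw [← Finset.sum_smul, smul_smul]
  have : ∀ v : Fin m → F, -(g ⬝ᵥ v) + f ⬝ᵥ v = (f - g) ⬝ᵥ v := fun v => by
    rw [sub_dotProduct]; ring
  simp only [this, sum_psi, sub_eq_zero]
  by_cases h : g = f
  · subst h; simp [qm_ne]
  · simp [h, Ne.symm h]

theorem sum_proj (hx : ∀ a b, x (a + b) = x a * x b) : ∑ f : Fin m → F, proj ρ x f = 1 := by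
  simp only [proj, ← Finset.smul_sum]
  rw [Finset.sum_comm]
  have : ∀ v f : Fin m → F, -(f ⬝ᵥ v) = (-v) ⬝ᵥ f := fun v f => by
    rw [neg_dotProduct, dotProduct_comm]
  simp only [this, ← Finset.sum_smul, sum_psi, neg_eq_zero]
  rw [Finset.sum_eq_single (0 : Fin m → F) (fun v _ hv => by rw [if_neg hv, zero_smul])
    (fun h => absurd (Finset.mem_univ _) h), if_pos rfl, x_zero hx, map_one, smul_smul,
    inv_mul_cancel₀ (qm_ne m), one_smul]

/-- An element normalising the abelian subgroup moves the projections. -/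
theorem comm_proj {A : Γ} {T : (Fin m → F) → (Fin m → F)} (hT : Function.Bijective T)
    (hA : ∀ v, A * x v = x (T v) * A) {f g : Fin m → F} (hfg : ∀ v, g ⬝ᵥ T v = f ⬝ᵥ v) :
    ρ A * proj ρ x f = proj ρ x g * ρ A := by
  rw [proj, proj, mul_smul_comm, smul_mul_assoc, Finset.mul_sum, Finset.sum_mul]
  congr 1
  refine Fintype.sum_bijective T hT _ _ fun v => ?_
  simp only [mul_smul_comm, smul_mul_assoc, ← map_mul, hA v, hfg v]

variable [FiniteDimensional ℂ V]

theorem trace_proj (hx : ∀ a b, x (a + b) = x a * x b) (f : Fin m → F) :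
    LinearMap.trace ℂ V (proj ρ x f) = (mult ρ x f : ℂ) := by
  have hp : LinearMap.IsProj (LinearMap.range (proj ρ x f)) (proj ρ x f) := by
    refine ⟨fun v => LinearMap.mem_range_self _ _, ?_⟩
    rintro _ ⟨v, rfl⟩
    rw [← Module.End.mul_apply, proj_mul_proj hx, if_pos rfl]
  exact hp.trace

theorem char_eq_sum (hx : ∀ a b, x (a + b) = x a * x b) (A : Γ) :
    ρ.character A = ∑ f : Fin m → F, LinearMap.trace ℂ V (ρ A * proj ρ x f) := by
  rw [← map_sum, ← Finset.mul_sum, sum_proj hx, mul_one]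
  rfl

theorem char_mul_eq_sum (hx : ∀ a b, x (a + b) = x a * x b) (A : Γ) (w : Fin m → F) :
    ρ.character (A * x w) =
      ∑ f : Fin m → F, psi F (f ⬝ᵥ w) * LinearMap.trace ℂ V (ρ A * proj ρ x f) := by
  rw [char_eq_sum hx]
  refine Finset.sum_congr rfl fun f _ => ?_
  rw [map_mul ρ, mul_assoc, rho_mul_proj hx, mul_smul_comm, map_smul, smul_eq_mul]

theorem char_x (hx : ∀ a b, x (a + b) = x a * x b) (w : Fin m → F) :
    ρ.character (x w) = ∑ f : Fin m → F, psi F (f ⬝ᵥ w) * (mult ρ x f : ℂ) := by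
  have := char_mul_eq_sum (ρ := ρ) hx 1 w
  rw [one_mul] at this
  rw [this]
  simp [map_one, trace_proj hx]

theorem trace_moved (hx : ∀ a b, x (a + b) = x a * x b) {A : Γ} {f g : Fin m → F}
    (h : ρ A * proj ρ x f = proj ρ x g * ρ A) (hne : f ≠ g) :
    LinearMap.trace ℂ V (ρ A * proj ρ x f) = 0 := by
  rw [show proj ρ x f = proj ρ x f * proj ρ x f by rw [proj_mul_proj hx, if_pos rfl], ← mul_assoc,
    LinearMap.trace_mul_comm, h, ← mul_assoc, proj_mul_proj hx, if_neg hne, zero_mul, map_zero]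

theorem mult_eq_of_comm (hx : ∀ a b, x (a + b) = x a * x b) {A : Γ} {f g : Fin m → F}
    (h : ρ A * proj ρ x f = proj ρ x g * ρ A) : mult ρ x f = mult ρ x g := by
  have h1 : proj ρ x g = ρ A * proj ρ x f * ρ A⁻¹ := by
    rw [h, mul_assoc, ← map_mul, mul_inv_cancel, map_one, mul_one]
  have : (mult ρ x f : ℂ) = mult ρ x g := by
    rw [← trace_proj hx, ← trace_proj hx, h1, LinearMap.trace_mul_comm, ← mul_assoc, ← map_mul,
      inv_mul_cancel, map_one, one_mul]
  exact_mod_cast this

theorem sum_mult (hx : ∀ a b, x (a + b) = x a * x b) :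
    ∑ f : Fin m → F, (mult ρ x f : ℂ) = (finrank ℂ V : ℂ) := by
  have := char_x (ρ := ρ) hx 0
  simp only [x_zero hx, dotProduct_zero, AddChar.map_zero_eq_one, one_mul] at this
  rw [← this, Representation.char_one]

theorem mult_zero_add_le (hx : ∀ a b, x (a + b) = x a * x b) :
    ∑ f : Fin m → F, mult ρ x f = finrank ℂ V := by
  have := sum_mult (ρ := ρ) hx
  exact_mod_cast this

/-- On a one-dimensional eigenspace a commuting map is the scalar given by its trace. -/
theorem scalar_of_mult_one (hx : ∀ a b, x (a + b) = x a * x b) {f : Fin m → F}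
    (h1 : mult ρ x f = 1) {X : Module.End ℂ V} (hX : X * proj ρ x f = proj ρ x f * X) :
    X * proj ρ x f = LinearMap.trace ℂ V (X * proj ρ x f) • proj ρ x f := by
  set e := proj ρ x f with he
  obtain ⟨⟨u, hu⟩, hu0, hall⟩ := finrank_eq_one_iff'.1 h1
  obtain ⟨u0, hu0'⟩ := hu
  have hXu : X u ∈ LinearMap.range e :=
    ⟨X u0, by rw [← hu0', ← Module.End.mul_apply, ← hX]; rfl⟩
  obtain ⟨c, hc⟩ := hall ⟨X u, hXu⟩
  have hc' : c • u = X u := congrArg Subtype.val hc
  have key : X * e = c • e := by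
    apply LinearMap.ext
    intro w
    obtain ⟨a, ha⟩ := hall ⟨e w, LinearMap.mem_range_self e w⟩
    have ha' : a • u = e w := congrArg Subtype.val ha
    rw [Module.End.mul_apply, LinearMap.smul_apply, ← ha', map_smul, ← hc', smul_comm]
  rw [key, map_smul, he, trace_proj hx, h1]
  simp

end Cfsg.Agent.Lib.MinDegSL
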