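import Cfsg.Agent.Lib.MinDegSL.Tools

/-! The descent for `SL 5` over the field with two elements. -/

set_option autoImplicit false

namespace Cfsg.Agent.Lib.MinDegSL

open Matrix Module
open Cfsg.Agent.Lib.Forms

universe u v w

variable {F : Type u} [Field F] [Fintype F] [DecidableEq F]

namespace Level

variable {Γ : Type w} [Group Γ] {m : ℕ} (L : Level F Γ m)
variable {V : Type v} [AddCommGroup V] [Module ℂ V] [FiniteDimensional ℂ V]
variable {ρ : Representation ℂ Γ V}

/-- The scalar of a product of fixing elements. -/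
theorem val_mul {f : Fin m → F} (hf1 : mult ρ L.x f = 1) {A B : L.H}
    (hA : L.Fixes A f) (hB : L.Fixes B f) :
    L.val ρ (A * B) f = L.val ρ A f * L.val ρ B f := by
  conv_lhs => rw [val, map_mul L.lev, map_mul ρ, mul_assoc, L.val_smul hf1 hB, mul_smul_comm,
    L.val_smul hf1 hA, smul_smul, map_smul, trace_proj L.x_add, hf1]
  simp [mul_comm]

/-- An element moving a functional has scalar zero there. -/
theorem val_moved {h : L.H} {f g : Fin m → F}
    (e : ((h.1.2⁻¹ : Fˣ) : F) • (g ᵥ* (h.1.1 : Matrix (Fin m) (Fin m) F)) = f) (hne : f ≠ g) :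
    L.val ρ h f = 0 := by
  have := L.comm ρ h g
  rw [e] at this
  exact trace_moved L.x_add this hne

theorem val_t_moved {i j : Fin m} (hij : i ≠ j) {b : F} (hb : b ≠ 0) {f : Fin m → F} (hf : f i ≠ 0) :
    L.val ρ (L.t i j b) f = 0 := by
  have hd : (Pi.single j (1 : F) : Fin m → F) ⬝ᵥ Pi.single i b = 0 := by simp [hij.symm]
  refine L.val_moved (g := f + (-(f i * b)) • (Pi.single j 1 : Fin m → F)) ?_ ?_
  · simp [t, vecMul_tv hd, hij, add_assoc]
  · intro h
    have := congrFun h j
    simp at this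
    exact this.elim hf hb

end Level

theorem sum_psi_coord {m : ℕ} {i k : Fin m} (hik : i ≠ k) :
    ∑ f ∈ Finset.univ.filter (fun f : Fin m → F => f i = 0), psi F (f k) = 0 := by
  obtain ⟨a, ha⟩ := psi_exists_ne_one (F := F)
  set S := ∑ f ∈ Finset.univ.filter (fun f : Fin m → F => f i = 0), psi F (f k) with hS
  have hmul : psi F a * S = S := by
    rw [hS, Finset.mul_sum]
    refine Finset.sum_equiv (Equiv.addLeft (Pi.single k a : Fin m → F)) (fun f => by simp [hik]) fun f _ => ?_
    simp [AddChar.map_add_eq_mul]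
  rcases mul_eq_zero.1 (show (psi F a - 1) * S = 0 by rw [sub_mul, hmul, one_mul, sub_self]) with h | h
  · exact absurd (sub_eq_zero.1 h) ha
  · exact h

/-- A nontrivial representation of `SL (m+1)` has degree at least `q^m - 1`. -/
theorem weak_bound {m : ℕ} (hm : 2 ≤ m) {V : Type v} [AddCommGroup V] [Module ℂ V]
    [FiniteDimensional ℂ V] {ρ : Representation ℂ (Matrix.SpecialLinearGroup (Fin (m + 1)) F) V}
    (hρ : ∃ g, ρ g ≠ 1) : Fintype.card F ^ m - 1 ≤ finrank ℂ V := by
  have h := (levelSL F m hm).finrank_eq (ρ := ρ) hm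
  have hb := (levelSL F m hm).b_pos hm
    (x_nontrivial hm hρ (v := Pi.single ⟨0, by omega⟩ 1) (by simp))
  rw [h]
  exact le_add_left (Nat.le_mul_of_pos_right _ hb)

/-- No representation of `SL 5` over two elements has the forbidden descent data. -/
theorem five_contra (hq : Fintype.card F = 2) {V : Type v} [AddCommGroup V] [Module ℂ V]
    [FiniteDimensional ℂ V] {ρ : Representation ℂ (Matrix.SpecialLinearGroup (Fin (4 + 1)) F) V}
    (hm : 2 ≤ 4) (hb1 : (levelSL F 4 hm).b ρ hm = 1)
    (hc : finrank ℂ (LinearMap.range (proj ρ (levelSL F 4 hm).x 0)) = 9) : False := by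
  set L := levelSL F 4 hm with hL
  set W := LinearMap.range (proj ρ L.x 0)
  have htor : L.HasTorus := fun i j last _ _ _ h => absurd h (by omega)
  have hg := toDetOne_tv (F := F) hm
  have h23 : 2 ≤ 3 := by omega
  set g : GL (Fin 4) F →* L.H := toDetOne F 4 with hgdef
  obtain ⟨hb2, hc2⟩ := L.next_step (ρ := ρ) g hg h23 htor hb1 (by
    show finrank ℂ W < _
    rw [hc, hq]; norm_num)
  set L2 := levelGL F 3 h23 with hL2
  set σ := L.next g ρ with hσ
  set W2 := LinearMap.range (proj σ L2.x 0)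
  have hW2 : finrank ℂ W2 = 2 := by
    rw [show finrank ℂ (LinearMap.range (proj ρ L.x 0)) = 9 from hc, hq] at hc2
    norm_num at hc2
    omega
  let i : Fin 3 := 0
  let j : Fin 3 := 1
  let k : Fin 3 := 2
  -- the fixed space of the second level is trivial for the special linear group
  have htriv : L2.val σ (L2.t i j 1) 0 = 2 := by
    let em : Matrix.SpecialLinearGroup (Fin (2 + 1)) F →* L2.H :=
      { toFun := fun A => ⟨(Matrix.SpecialLinearGroup.toGL A, 1), L2.sl_mem A⟩
        map_one' := Subtype.ext (by simp)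
        map_mul' := fun A B => Subtype.ext (by simp) }
    have h1 : ∀ A, (L2.fixRep σ).comp em A = 1 := by
      intro A
      by_contra h
      have := weak_bound (F := F) (m := 2) le_rfl (ρ := (L2.fixRep σ).comp em) ⟨A, h⟩
      rw [show finrank ℂ (LinearMap.range (proj σ L2.x 0)) = 2 from hW2, hq] at this
      norm_num at this
    have h2 : L2.t i j 1 = em (slTv (Pi.single i 1) (Pi.single j 1)) :=
      Subtype.ext (Prod.ext (Units.ext rfl) rfl)
    rw [← L2.char_fixRep, h2]
    show LinearMap.trace ℂ _ ((L2.fixRep σ).comp em (slTv _ _)) = 2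
    rw [h1, LinearMap.trace_one]
    show ((finrank ℂ W2 : ℕ) : ℂ) = 2
    rw [hW2]; norm_num
  -- the two elements
  let a0 : Fin 4 := 0
  let a1 : Fin 4 := 1
  let a2 : Fin 4 := 2
  let a3 : Fin 4 := 3
  have h01 : a0 ≠ a1 := by decide
  have h23' : a2 ≠ a3 := by decide
  set T := L.t a0 a1 1 with hT
  set U := L.t a2 a3 1 with hU
  have hone : ∀ f : Fin 4 → F, f ≠ 0 → mult ρ L.x f = 1 := fun f hf => by
    rw [L.mult_eq_b hm hf, hb1]
  have hTval : ∀ f : Fin 4 → F, f ≠ 0 → f a0 = 0 → L.val ρ T f = 1 := fun f hf h0 =>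
    L.val_t_of_room h01 1 h0 (hone f hf) ⟨a2, by decide, by decide, .inr ⟨a3, by decide, by decide, by decide⟩⟩
  have hUval : ∀ f : Fin 4 → F, f ≠ 0 → f a2 = 0 → L.val ρ U f = 1 := fun f hf h2 =>
    L.val_t_of_room h23' 1 h2 (hone f hf) ⟨a0, by decide, by decide, .inr ⟨a1, by decide, by decide, by decide⟩⟩
  have hT0 : L.val ρ T 0 = 1 := by
    have h := L.val_zero_t hm htor hb1 (i := a0) (j := a1) rfl rfl (one_ne_zero (α := F))
    rw [hT, h, show (mult ρ L.x 0 : ℂ) = ((finrank ℂ W : ℕ) : ℂ) from rfl, hc, hq]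
    norm_num
  set e2 : Fin 4 → F := Pi.single a2 1
  have hu1 : ρ.character (L.lev T * L.x e2) = 0 := by
    rw [char_mul_eq_sum L.x_add]
    change ∑ f, psi F (f ⬝ᵥ e2) * L.val ρ T f = 0
    rw [← Finset.sum_filter_add_sum_filter_not Finset.univ (fun f : Fin 4 → F => f a0 = 0),
      Finset.sum_eq_zero (s := Finset.univ.filter fun f : Fin 4 → F => ¬ f a0 = 0)
        (fun f hf => by rw [L.val_t_moved h01 one_ne_zero (Finset.mem_filter.1 hf).2, mul_zero]),
      add_zero, ← sum_psi_coord (F := F) (show a0 ≠ a2 by decide)]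
    refine Finset.sum_congr rfl fun f hf => ?_
    rcases eq_or_ne f 0 with rfl | h
    · simp [hT0]
    · rw [hTval f h (Finset.mem_filter.1 hf).2, mul_one]; simp [e2]
  have hconj : IsConj (L.lev T * L.x e2) (L.lev (T * U)) := by
    set E : GL (Fin (4 + 1)) F := tv (ext0 (Pi.single a2 1)) (eLast 4) with hE
    set b1 : Fin (4 + 1) → F := -eLast 4
    set p1 : Fin (4 + 1) → F := ext0 (Pi.single a3 1)
    set b2 : Fin (4 + 1) → F := ext0 (Pi.single a3 1)
    set P : Fin (4 + 1) → F := ext0 (Pi.single a0 1)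
    set Q : Fin (4 + 1) → F := ext0 (Pi.single a1 1)
    set R : Fin (4 + 1) → F := ext0 (Pi.single a2 1)
    have hQP : Q ⬝ᵥ P = 0 := by rw [ext0_dot]; simp [show a1 ≠ a0 by decide]
    have hp1 : p1 ⬝ᵥ b1 = 0 := by simp [p1, b1, ext0_dot_eLast]
    have hp2 : (eLast (F := F) 4) ⬝ᵥ b2 = 0 := eLast_dot_ext0 _
    have hLR : (eLast (F := F) 4) ⬝ᵥ R = 0 := eLast_dot_ext0 _
    have hpR : p1 ⬝ᵥ R = 0 := by rw [ext0_dot]; simp [show a3 ≠ a2 by decide]
    have c1 : tv b1 p1 * tv P Q * (tv b1 p1)⁻¹ = tv P Q := by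
      rw [tv_conj_tv hp1 hQP]
      congr 1
      · rw [show p1 ⬝ᵥ P = 0 by rw [ext0_dot]; simp [show a3 ≠ a0 by decide], zero_smul, add_zero]
      · rw [show Q ⬝ᵥ b1 = 0 by simp [Q, b1, ext0_dot_eLast], zero_smul, sub_zero]
    have c2 : tv b2 (eLast 4) * tv P Q * (tv b2 (eLast 4))⁻¹ = tv P Q := by
      rw [tv_conj_tv hp2 hQP]
      congr 1
      · rw [show eLast 4 ⬝ᵥ P = 0 from eLast_dot_ext0 _, zero_smul, add_zero]
      · rw [show Q ⬝ᵥ b2 = 0 by rw [ext0_dot]; simp [show a1 ≠ a3 by decide], zero_smul, sub_zero]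
    have d1 : tv b1 p1 * tv R (eLast 4) * (tv b1 p1)⁻¹ = tv R (eLast 4 + p1) := by
      rw [tv_conj_tv hp1 hLR, hpR, zero_smul, add_zero,
        show eLast 4 ⬝ᵥ b1 = (-1 : F) by simp [b1, eLast], neg_smul, one_smul, sub_neg_eq_add]
    have hp3 : (eLast 4 + p1) ⬝ᵥ R = 0 := by rw [add_dotProduct, hLR, hpR, add_zero]
    have d2 : tv b2 (eLast 4) * tv R (eLast 4 + p1) * (tv b2 (eLast 4))⁻¹ = tv R p1 := by
      rw [tv_conj_tv hp2 hp3, hLR, zero_smul, add_zero,
        show (eLast 4 + p1) ⬝ᵥ b2 = 1 by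
          rw [add_dotProduct, hp2, ext0_dot]; simp, one_smul, add_sub_cancel_left]
    refine isConj_iff.2 ⟨slTv b2 (eLast 4) * slTv b1 p1, ?_⟩
    apply Matrix.SpecialLinearGroup.toGL_injective
    simp only [map_mul, map_inv, toGL_slTv]
    have eT : ∀ (x y : Fin 4 → F), y ⬝ᵥ x = 0 →
        Matrix.SpecialLinearGroup.toGL (L.lev (L.tt x y)) = tv (ext0 x) (ext0 y) := by
      intro x y h
      rw [← glBlk_tv h]
      exact Units.ext rfl
    have eX : Matrix.SpecialLinearGroup.toGL (L.x e2) = tv R (eLast 4) := by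
      rw [← glBlk_x]
      exact Units.ext rfl
    rw [eX, show T = L.tt (Pi.single a0 1) (Pi.single a1 1) from rfl,
      show U = L.tt (Pi.single a2 1) (Pi.single a3 1) from rfl, eT _ _ (by simp [h01.symm]),
      eT _ _ (by simp [h23'.symm])]
    change tv b2 (eLast 4) * tv b1 p1 * (tv P Q * tv R (eLast 4)) * (tv b2 (eLast 4) * tv b1 p1)⁻¹ =
      tv P Q * tv R p1
    conv_rhs => rw [← c2, ← d2, ← c1, ← d1]
    group
  -- the value of the first fixed representation at `T * U`
  set w : GL (Fin 4) F := tv (Pi.single a0 1) (Pi.single a1 1) * tv (Pi.single a2 1) (Pi.single a3 1)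
  have hgw : g w = T * U := by
    rw [map_mul]; exact congrArg₂ (· * ·) (hg _ _) (hg _ _)
  have hsum : ρ.character (L.lev (T * U)) = L.val ρ (T * U) 0 + 3 := by
    rw [char_eq_sum L.x_add]
    change ∑ f, L.val ρ (T * U) f = _
    rw [← Finset.add_sum_erase _ _ (Finset.mem_univ (0 : Fin 4 → F))]
    congr 1
    rw [← Finset.sum_filter_add_sum_filter_not (Finset.univ.erase (0 : Fin 4 → F))
        (fun f : Fin 4 → F => f a0 = 0 ∧ f a2 = 0)]
    rw [Finset.sum_congr rfl (g := fun _ => (1 : ℂ)) (fun f hf => by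
        obtain ⟨h1, h2, h3⟩ := Finset.mem_filter.1 hf
        have h0 := Finset.ne_of_mem_erase h1
        rw [L.val_mul (hone f h0) (L.fixes_t h01 1 h2) (L.fixes_t h23' 1 h3), hTval f h0 h2,
          hUval f h0 h3, mul_one]),
      Finset.sum_eq_zero (s := (Finset.univ.erase (0 : Fin 4 → F)).filter fun f : Fin 4 → F =>
        ¬ (f a0 = 0 ∧ f a2 = 0)) (fun f hf => by
        have hne := (Finset.mem_filter.1 hf).2
        refine L.val_moved (g := f + (-(f a0)) • Pi.single a1 1 + (-(f a2)) • Pi.single a3 1) ?_ ?_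
        · show (((1 : Fˣ) * 1)⁻¹ : Fˣ).val • (_ ᵥ* ((tv (Pi.single a0 1) (Pi.single a1 1) *
            tv (Pi.single a2 1) (Pi.single a3 1) : GL (Fin 4) F) : Matrix (Fin 4) (Fin 4) F)) = f
          rw [Units.val_mul, ← vecMul_vecMul, Level.vecMul_tv (by simp [h23'.symm]),
            Level.vecMul_tv (by simp [h01.symm])]
          ext r
          fin_cases r <;> simp [a0, a1, a2, a3, Pi.single_apply]
        · intro h
          refine hne ⟨?_, ?_⟩
          · have := congrFun h a1; simpa [a0, a1, a2, a3, Pi.single_apply] using this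
          · have := congrFun h a3; simpa [a0, a1, a2, a3, Pi.single_apply] using this),
      add_zero, Finset.sum_const, nsmul_one]
    have hcard : ((Finset.univ.erase (0 : Fin 4 → F)).filter fun f => f a0 = 0 ∧ f a2 = 0).card = 3 := by
      rw [Finset.filter_erase, Finset.card_erase_of_mem (by simp)]
      have : (Finset.univ.filter fun f : Fin 4 → F => f a0 = 0 ∧ f a2 = 0).card =
          Fintype.card (F × F) := by
        rw [← Fintype.card_subtype]
        exact Fintype.card_congr
          { toFun := fun f => (f.1 a1, f.1 a3)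
            invFun := fun p => ⟨![0, p.1, 0, p.2], by simp [a0, a2]⟩
            left_inv := fun f => Subtype.ext (by
              ext r; fin_cases r <;> simp [a1, a3] <;> first | exact f.2.1.symm | exact f.2.2.symm)
            right_inv := fun p => by simp [a1, a3] }
      rw [this]; simp [hq]
    rw [hcard]; norm_num
  have hφw : L.val ρ (T * U) 0 = -3 := by
    obtain ⟨c, hcj⟩ := isConj_iff.1 hconj
    rw [← hcj, Representation.char_conj, hu1] at hsum
    linear_combination -hsum
  -- compute it at the second level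
  have hw : w = L2.lev (L2.t i j 1) * L2.x (Pi.single k 1) := by
    show tv (Pi.single a0 1) (Pi.single a1 1) * tv (Pi.single a2 1) (Pi.single a3 1) =
      glBlk (tv (Pi.single i 1) (Pi.single j 1)) 0 1 * glBlk 1 (Pi.single k 1) 1
    rw [glBlk_tv (by simp [i, j]), glBlk_x]
    congr 2 <;> funext r <;> fin_cases r <;>
      simp [ext0, eLast, a0, a1, a2, a3, i, j, k, Fin.snoc, Pi.single_apply, Fin.ext_iff]
  have hcomp : L.val ρ (T * U) 0 = ∑ f : Fin 3 → F, psi F (f k) * L2.val σ (L2.t i j 1) f := by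
    rw [← L.char_fixRep, ← hgw]
    show σ.character w = _
    rw [hw, char_mul_eq_sum L2.x_add]
    exact Finset.sum_congr rfl fun f _ => by simp [Level.val]
  rw [← Finset.sum_filter_add_sum_filter_not Finset.univ (fun f : Fin 3 → F => f i = 0),
    Finset.sum_eq_zero (s := Finset.univ.filter fun f : Fin 3 → F => ¬ f i = 0)
      (fun f hf => by
        rw [L2.val_t_moved (show i ≠ j by decide) one_ne_zero (Finset.mem_filter.1 hf).2, mul_zero]),
    add_zero, ← Finset.add_sum_erase _ _ (show (0 : Fin 3 → F) ∈ _ by simp), htriv, hφw] at hcomp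
  have hchar2 : (1 : F) + 1 = 0 := by
    obtain ⟨c, hchar⟩ := CharP.exists F
    obtain ⟨n, hp, hcard⟩ := FiniteField.card F c
    have h2 : c = 2 := (Nat.prime_dvd_prime_iff_eq hp Nat.prime_two).1
      ⟨c ^ ((n : ℕ) - 1), by
        conv_lhs => rw [← hq, hcard, ← Nat.sub_add_cancel (show 1 ≤ (n : ℕ) from n.2), pow_succ']⟩
    subst h2
    rw [one_add_one_eq_two]
    exact CharTwo.two_eq_zero
  have hnorm : ∀ f ∈ (Finset.univ.filter fun f : Fin 3 → F => f i = 0).erase 0,
      ‖psi F (f k) * L2.val σ (L2.t i j 1) f‖ = 1 := by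
    intro f hf
    have h0 := Finset.ne_of_mem_erase hf
    have hfi := (Finset.mem_filter.1 (Finset.mem_of_mem_erase hf)).2
    have hm1 : mult σ L2.x f = 1 := by rw [L2.mult_eq_b h23 h0, hb2]
    have hfx := L2.fixes_t (show i ≠ j by decide) 1 hfi
    have hsq : L2.t i j 1 * L2.t i j 1 = 1 := by
      apply Subtype.ext
      refine Prod.ext ?_ (by simp [Level.t])
      show tv _ _ * tv _ _ = 1
      rw [tv_add_center (by simp [i, j]) (by simp [i, j]), ← Pi.single_add, hchar2, Pi.single_zero,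
        tv_zero_left]
    have hv : L2.val σ (L2.t i j 1) f * L2.val σ (L2.t i j 1) f = 1 := by
      rw [← L2.val_mul hm1 hfx hfx, hsq, Level.val, map_one, map_one, one_mul, trace_proj L2.x_add, hm1,
        Nat.cast_one]
    have hp : psi F (f k) * psi F (f k) = 1 := by
      rw [← AddChar.map_add_eq_mul, show f k + f k = (1 + 1) * f k by ring, hchar2, zero_mul,
        AddChar.map_zero_eq_one]
    have : (psi F (f k) * L2.val σ (L2.t i j 1) f) ^ 2 = 1 := by
      linear_combination (L2.val σ (L2.t i j 1) f * L2.val σ (L2.t i j 1) f) * hp + hv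
    exact Complex.norm_eq_one_of_pow_eq_one this two_ne_zero
  have hcard3 : ((Finset.univ.filter fun f : Fin 3 → F => f i = 0).erase 0).card = 3 := by
    rw [Finset.card_erase_of_mem (by simp), Level.card_fixed, hq]
    norm_num
  have hle := norm_sum_le ((Finset.univ.filter fun f : Fin 3 → F => f i = 0).erase 0)
    fun f => psi F (f k) * L2.val σ (L2.t i j 1) f
  rw [Finset.sum_congr rfl hnorm, Finset.sum_const, hcard3, nsmul_one] at hle
  simp only [Pi.zero_apply, AddChar.map_zero_eq_one, one_mul] at hcomp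
  rw [show ∑ f ∈ (Finset.univ.filter fun f : Fin 3 → F => f i = 0).erase 0,
      psi F (f k) * L2.val σ (L2.t i j 1) f = -5 by linear_combination -hcomp] at hle
  norm_num at hle

end Cfsg.Agent.Lib.MinDegSL
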