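import Cfsg.Agent.Lib.MinDegSL.Eigen
import Cfsg.Agent.Lib.Forms.Transvection
import Cfsg.Agent.Lib.CrossChar.SL

/-!
One level of the descent: a group containing an elementary abelian subgroup `F^m` normalised by a
group of pairs `(A, e)` acting by `v ↦ e⁻¹ A v`.
-/

set_option autoImplicit false

namespace Cfsg.Agent.Lib.MinDegSL

open Matrix Module
open Cfsg.Agent.Lib.Forms

universe u v w

/-- The data of one level. -/
structure Level (F : Type u) [Field F] (Γ : Type w) [Group Γ] (m : ℕ) where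
  /-- the Levi group -/
  H : Subgroup (GL (Fin m) F × Fˣ)
  /-- its embedding -/
  lev : H →* Γ
  /-- the radical -/
  x : (Fin m → F) → Γ
  x_add : ∀ a b, x (a + b) = x a * x b
  conj : ∀ (h : H) v, lev h * x v =
    x (((h.1.2⁻¹ : Fˣ) : F) • ((h.1.1 : Matrix (Fin m) (Fin m) F) *ᵥ v)) * lev h
  tv_mem : ∀ a φ : Fin m → F, ((tv a φ, 1) : GL (Fin m) F × Fˣ) ∈ H
  sl_mem : ∀ A : Matrix.SpecialLinearGroup (Fin m) F,
    ((Matrix.SpecialLinearGroup.toGL A, 1) : GL (Fin m) F × Fˣ) ∈ H
  conj_tv : ∀ a φ : Fin m → F, a ≠ 0 → φ ≠ 0 → φ ⬝ᵥ a = 0 → ∀ v, v ≠ 0 →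
    IsConj (x v) (lev ⟨(tv a φ, 1), tv_mem a φ⟩)

variable {F : Type u} [Field F] {Γ : Type w} [Group Γ] {m : ℕ}

namespace Level

variable (L : Level F Γ m)

/-- The torus condition needed in dimensions two and three. -/
def HasTorus : Prop :=
  ∀ i j last : Fin m, i.1 = 0 → j.1 = 1 → last.1 + 1 = m → m ≤ 3 → ∃ h : L.H, ∃ r : F, r ≠ 1 ∧
    (∀ b : F, h * ⟨(tv (Pi.single i b) (Pi.single j 1), 1), L.tv_mem _ _⟩ =
      ⟨(tv (Pi.single i (r * b)) (Pi.single j 1), 1), L.tv_mem _ _⟩ * h) ∧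
    ∀ c : F, ((h.1.2⁻¹ : Fˣ) : F) • ((Pi.single last c) ᵥ* (h.1.1 : Matrix (Fin m) (Fin m) F)) =
      Pi.single last c

/-- The elementary transvection in the Levi group. -/
noncomputable def t (i j : Fin m) (b : F) : L.H :=
  ⟨(tv (Pi.single i b) (Pi.single j 1), 1), L.tv_mem _ _⟩

/-- A transvection of the Levi group. -/
noncomputable def tt (a φ : Fin m → F) : L.H := ⟨(tv a φ, 1), L.tv_mem a φ⟩

/-- An element fixes a functional. -/
def Fixes (h : L.H) (f : Fin m → F) : Prop :=
  ((h.1.2⁻¹ : Fˣ) : F) • (f ᵥ* (h.1.1 : Matrix (Fin m) (Fin m) F)) = f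

theorem vecMul_tv {a φ f : Fin m → F} (h : φ ⬝ᵥ a = 0) :
    f ᵥ* ((tv a φ : GL (Fin m) F) : Matrix (Fin m) (Fin m) F) = f + (f ⬝ᵥ a) • φ := by
  rw [tv_val h, tvMat, vecMul_add, vecMul_one, vecMul_vecMulVec]

theorem fixes_tt {a φ f : Fin m → F} (h : φ ⬝ᵥ a = 0) (hf : f ⬝ᵥ a = 0) : L.Fixes (L.tt a φ) f := by
  simp [Fixes, tt, vecMul_tv h, hf]

variable {V : Type v} [AddCommGroup V] [Module ℂ V] (ρ : Representation ℂ Γ V)
variable [Fintype F] [DecidableEq F]

theorem comm (h : L.H) (g : Fin m → F) :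
    ρ (L.lev h) * proj ρ L.x (((h.1.2⁻¹ : Fˣ) : F) • (g ᵥ* (h.1.1 : Matrix (Fin m) (Fin m) F))) =
      proj ρ L.x g * ρ (L.lev h) := by
  set e : F := ((h.1.2⁻¹ : Fˣ) : F) with he
  have hT : Function.Bijective (fun v : Fin m → F => e • ((h.1.1 : Matrix (Fin m) (Fin m) F) *ᵥ v)) := by
    refine Finite.injective_iff_bijective.1 fun a b hab => ?_
    exact gl_mulVec_injective h.1.1 (smul_right_injective (Fin m → F) (Units.ne_zero _) hab)
  refine comm_proj hT (L.conj h) fun v => ?_
  simp only [dotProduct_smul, smul_dotProduct, ← dotProduct_mulVec]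

variable {ρ}

theorem comm_fixes {h : L.H} {f : Fin m → F} (hf : L.Fixes h f) :
    ρ (L.lev h) * proj ρ L.x f = proj ρ L.x f * ρ (L.lev h) := by
  have := L.comm ρ h f
  rwa [show ((h.1.2⁻¹ : Fˣ) : F) • (f ᵥ* (h.1.1 : Matrix (Fin m) (Fin m) F)) = f from hf] at this

variable [FiniteDimensional ℂ V]

theorem mult_const (hm : 2 ≤ m) {f g : Fin m → F} (hf : f ≠ 0) (hg : g ≠ 0) :
    mult ρ L.x f = mult ρ L.x g := by
  obtain ⟨A, hA⟩ := CrossChar.sl_transitive hm g f hg hf
  have h := L.comm ρ ⟨(Matrix.SpecialLinearGroup.toGL A.transpose, 1), L.sl_mem _⟩ g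
  have e : g ᵥ* ((Matrix.SpecialLinearGroup.toGL A.transpose : GL (Fin m) F) : Matrix (Fin m) (Fin m) F)
      = f := by
    show g ᵥ* (A.transpose : Matrix (Fin m) (Fin m) F) = f
    rw [Matrix.SpecialLinearGroup.coe_transpose, vecMul_transpose, hA]
  simp only [inv_one, Units.val_one, one_smul] at h
  rw [e] at h
  exact mult_eq_of_comm L.x_add h

/-- The multiplicity of the nonzero functionals. -/
noncomputable def b (ρ : Representation ℂ Γ V) (hm : 2 ≤ m) : ℕ :=
  mult ρ L.x (Pi.single ⟨0, by omega⟩ 1)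

theorem mult_eq_b (hm : 2 ≤ m) {f : Fin m → F} (hf : f ≠ 0) : mult ρ L.x f = L.b ρ hm :=
  L.mult_const hm hf (by simp)

theorem finrank_eq (hm : 2 ≤ m) :
    finrank ℂ V = mult ρ L.x 0 + (Fintype.card F ^ m - 1) * L.b ρ hm := by
  rw [← mult_zero_add_le (ρ := ρ) L.x_add, ← Finset.add_sum_erase _ _ (Finset.mem_univ (0 : Fin m → F)),
    Finset.sum_congr rfl fun f hf => L.mult_eq_b hm (Finset.ne_of_mem_erase hf)]
  simp [Finset.card_erase_of_mem]

theorem b_pos (hm : 2 ≤ m) {v : Fin m → F} (hv : ρ (L.x v) ≠ 1) : 0 < L.b ρ hm := by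
  by_contra h
  have hz : ∀ f : Fin m → F, f ≠ 0 → proj ρ L.x f = 0 := fun f hf => by
    have : mult ρ L.x f = 0 := by rw [L.mult_eq_b hm hf]; omega
    exact LinearMap.range_eq_bot.1 (Submodule.finrank_eq_zero.1 this)
  have h1 : proj ρ L.x 0 = 1 := by
    rw [← sum_proj (ρ := ρ) L.x_add, Finset.sum_eq_single (0 : Fin m → F) (fun f _ hf => hz f hf)
      (fun h => absurd (Finset.mem_univ _) h)]
  apply hv
  have := rho_mul_proj (ρ := ρ) L.x_add 0 v
  rwa [h1, mul_one, zero_dotProduct, AddChar.map_zero_eq_one, one_smul] at this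

theorem char_x_eq (hm : 2 ≤ m) {v : Fin m → F} (hv : v ≠ 0) :
    ρ.character (L.x v) = (mult ρ L.x 0 : ℂ) - L.b ρ hm := by
  rw [char_x L.x_add]
  have : ∀ f : Fin m → F, psi F (f ⬝ᵥ v) * (mult ρ L.x f : ℂ) =
      psi F (f ⬝ᵥ v) * (L.b ρ hm : ℂ) +
        if f = 0 then ((mult ρ L.x 0 : ℂ) - L.b ρ hm) else 0 := by
    intro f
    split_ifs with h
    · subst h; simp
    · rw [L.mult_eq_b hm h, add_zero]
  rw [Finset.sum_congr rfl fun f _ => this f, Finset.sum_add_distrib, ← Finset.sum_mul,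
    Finset.sum_congr rfl (g := fun f => psi F (v ⬝ᵥ f)) (fun f _ => by rw [dotProduct_comm]),
    sum_psi, if_neg hv, zero_mul, zero_add, Finset.sum_ite_eq']
  simp

/-- The value on the eigenspace of a functional. -/
noncomputable def val (ρ : Representation ℂ Γ V) (h : L.H) (f : Fin m → F) : ℂ :=
  LinearMap.trace ℂ V (ρ (L.lev h) * proj ρ L.x f)

theorem val_smul {f : Fin m → F} (hf1 : mult ρ L.x f = 1) {h : L.H} (hh : L.Fixes h f) :
    ρ (L.lev h) * proj ρ L.x f = L.val ρ h f • proj ρ L.x f :=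
  scalar_of_mult_one L.x_add hf1 (L.comm_fixes hh)

theorem val_commutator {f : Fin m → F} (hf1 : mult ρ L.x f = 1) {s A B : L.H}
    (hA : L.Fixes A f) (hB : L.Fixes B f) (e : A * B = s * B * A) (hs : L.Fixes s f) :
    L.val ρ s f = 1 := by
  have hA' := L.val_smul hf1 hA
  have hB' := L.val_smul hf1 hB
  have hs' := L.val_smul hf1 hs
  set p := proj ρ L.x f with hp
  have hp0 : p ≠ 0 := by
    intro h
    rw [mult, ← hp, h, LinearMap.range_zero, finrank_bot] at hf1
    exact zero_ne_one hf1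
  have hne : ∀ {h : L.H}, ρ (L.lev h) * p = L.val ρ h f • p → L.val ρ h f ≠ 0 := by
    intro h hh hz
    rw [hz, zero_smul] at hh
    apply hp0
    have := congrArg (fun X => ρ (L.lev h)⁻¹ * X) hh
    simpa only [← mul_assoc, ← map_mul, inv_mul_cancel, map_one, one_mul, mul_zero] using this
  have h1 : ρ (L.lev (A * B)) * p = (L.val ρ B f * L.val ρ A f) • p := by
    rw [map_mul, map_mul, mul_assoc, hB', mul_smul_comm, hA', smul_smul]
  have h2 : ρ (L.lev (A * B)) * p = (L.val ρ A f * (L.val ρ B f * L.val ρ s f)) • p := by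
    rw [e, map_mul L.lev, map_mul L.lev, map_mul ρ, map_mul ρ, mul_assoc, hA', mul_smul_comm, mul_assoc, hB',
      mul_smul_comm, hs', smul_smul, smul_smul]
    congr 1
    ring
  have h3 := sub_eq_zero.2 (h1.symm.trans h2)
  rw [← sub_smul, smul_eq_zero, or_iff_left hp0, sub_eq_zero] at h3
  have hab := mul_ne_zero (hne hB') (hne hA')
  refine mul_left_cancel₀ hab ?_
  rw [mul_one]
  conv_rhs => rw [h3]
  ring

theorem fixes_t {i j : Fin m} (hij : i ≠ j) (b : F) {f : Fin m → F} (hf : f i = 0) :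
    L.Fixes (L.t i j b) f :=
  L.fixes_tt (by simp [hij.symm]) (by simp [hf])

/-- The scalars of elementary transvections are trivial when there is room for a commutator. -/
theorem val_t_of_room {i j : Fin m} (hij : i ≠ j) (b : F) {f : Fin m → F} (hf : f i = 0)
    (hf1 : mult ρ L.x f = 1)
    (hroom : ∃ k, k ≠ i ∧ k ≠ j ∧ (f k = 0 ∨ ∃ l, l ≠ i ∧ l ≠ j ∧ l ≠ k)) :
    L.val ρ (L.t i j b) f = 1 := by
  obtain ⟨u, w, huj, hwu, hwi, hfu⟩ :
      ∃ u w : Fin m → F, u j = 0 ∧ w ⬝ᵥ u = 1 ∧ w i = 0 ∧ f ⬝ᵥ u = 0 := by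
    obtain ⟨k, hki, hkj, hk | ⟨l, hli, hlj, hlk⟩⟩ := hroom
    · exact ⟨Pi.single k 1, Pi.single k 1, by simp [hkj.symm], by simp, by simp [hki.symm], by simp [hk]⟩
    · by_cases hk : f k = 0
      · exact ⟨Pi.single k 1, Pi.single k 1, by simp [hkj.symm], by simp, by simp [hki.symm], by simp [hk]⟩
      · refine ⟨f l • Pi.single k 1 - f k • Pi.single l 1, Pi.single l (-(f k)⁻¹), ?_, ?_, ?_, ?_⟩
        · simp [hkj.symm, hlj.symm]
        · simp [hlk, dotProduct_sub, hk]
        · simp [hli.symm]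
        · simp [dotProduct_sub]; ring
  have hju : (Pi.single j (1 : F) : Fin m → F) ⬝ᵥ u = 0 := by simp [huj]
  have hwib : (-w) ⬝ᵥ (Pi.single i b : Fin m → F) = 0 := by simp [hwi]
  refine L.val_commutator hf1 (A := L.tt u (Pi.single j 1)) (B := L.tt (Pi.single i b) (-w))
    (L.fixes_tt hju hfu) (L.fixes_tt hwib (by simp [hf])) ?_ (L.fixes_t hij b hf)
  apply Subtype.ext
  refine Prod.ext ?_ (by simp [tt, t])
  have := tv_commutator hju hwib (by simp [hij.symm] : (Pi.single j (1 : F) : Fin m → F) ⬝ᵥ Pi.single i b = 0)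
  rw [mul_inv_eq_iff_eq_mul, mul_inv_eq_iff_eq_mul] at this
  simpa [tt, t, hwu] using this

/-- The scalars of the elementary transvection `(0, 1)` are trivial. -/
theorem val_t_eq_one (hm : 2 ≤ m) (htor : L.HasTorus) (hb1 : L.b ρ hm = 1) {i j : Fin m}
    (hi : i.1 = 0) (hj : j.1 = 1) (b : F) {f : Fin m → F} (hf0 : f ≠ 0) (hf : f i = 0) :
    L.val ρ (L.t i j b) f = 1 := by
  have hij : i ≠ j := fun h => by rw [h] at hi; omega
  have h1 : ∀ g : Fin m → F, g ≠ 0 → mult ρ L.x g = 1 := fun g hg => by rw [L.mult_eq_b hm hg, hb1]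
  by_cases hroom : ∃ k, k ≠ i ∧ k ≠ j ∧ (f k = 0 ∨ ∃ l, l ≠ i ∧ l ≠ j ∧ l ≠ k)
  · exact L.val_t_of_room hij b hf (h1 f hf0) hroom
  -- now `m ≤ 3`
  have hm3 : m ≤ 3 := by
    by_contra h4
    exact hroom ⟨⟨2, by omega⟩, by simp [Fin.ext_iff, hi], by simp [Fin.ext_iff, hj],
      .inr ⟨⟨3, by omega⟩, by simp [Fin.ext_iff, hi], by simp [Fin.ext_iff, hj], by simp⟩⟩
  obtain ⟨last, hlast⟩ : ∃ last : Fin m, last.1 + 1 = m := ⟨⟨m - 1, by omega⟩, by simp; omega⟩
  -- the torus fixes the multiples of the last coordinate functional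
  have base : ∀ g : Fin m → F, g ≠ 0 → (∀ k, k ≠ last → g k = 0) → g i = 0 →
      L.val ρ (L.t i j b) g = 1 := by
    intro g hg hsupp hgi
    obtain ⟨h, r, hr, hconj, hfix⟩ := htor i j last hi hj hlast hm3
    have hge : g = Pi.single last (g last) := by
      ext k
      by_cases hk : k = last
      · subst hk; simp
      · simp [hsupp k hk, hk]
    have hh : L.Fixes h g := by rw [Fixes, hge]; exact hfix _
    set b' := b / (r - 1) with hb'
    refine L.val_commutator (h1 g hg) hh (L.fixes_t hij b' hgi) ?_ (L.fixes_t hij b hgi)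
    have hr1 : r - 1 ≠ 0 := sub_ne_zero.2 hr
    rw [show h * L.t i j b' = _ from hconj b']
    congr 1
    apply Subtype.ext
    refine Prod.ext ?_ (by simp [t])
    show tv (Pi.single i (r * b')) (Pi.single j 1) = tv (Pi.single i b) _ * tv (Pi.single i b') _
    rw [tv_add_center (by simp [hij.symm]) (by simp [hij.symm]), ← Pi.single_add]
    congr 2
    rw [hb']; field_simp; ring
  by_cases hl : last = j
  · refine base f hf0 (fun k hk => ?_) hf
    have : k = i := Fin.ext (by have := hl ▸ hlast; have := k.2; have : k.1 ≠ 1 := fun h => hk (hl ▸ Fin.ext (h.trans hj.symm)); omega)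
    rw [this, hf]
  · have hli : last ≠ i := fun h => by have := h ▸ hlast; omega
    have hfl : f last ≠ 0 := fun h => hroom ⟨last, hli, hl, .inl h⟩
    -- move `f` to a multiple of the last coordinate functional
    set c := -(f j) / f last with hc
    have hjl : (Pi.single j (1 : F) : Fin m → F) ⬝ᵥ Pi.single last c = 0 := by simp [Ne.symm hl]
    set A := L.tt (Pi.single last c) (Pi.single j 1) with hA
    set g := ((A.1.2⁻¹ : Fˣ) : F) • (f ᵥ* (A.1.1 : Matrix (Fin m) (Fin m) F)) with hg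
    have hg' : g = f + (-(f j)) • Pi.single j 1 := by
      have hd : f ⬝ᵥ Pi.single last c = -f j := by
        rw [dotProduct_single, hc, mul_div_cancel₀ _ hfl]
      simp only [hg, hA, tt, inv_one, Units.val_one, one_smul, vecMul_tv hjl, hd]
    have hgl : g last = f last := by simp [hg', hl]
    have hg0 : g ≠ 0 := fun h => hfl (by rw [← hgl, h]; rfl)
    have hgs : ∀ k, k ≠ last → g k = 0 := by
      intro k hk
      rcases Decidable.em (k = j) with rfl | hkj
      · simp [hg']
      · have : k = i := Fin.ext (by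
          have := k.2; have h1 : k.1 ≠ 1 := fun h => hkj (Fin.ext (h.trans hj.symm))
          have h2 : k.1 + 1 ≠ m := fun h => hk (Fin.ext (by omega))
          omega)
        subst this
        simp [hg', hf, hkj]
    have hgi : g i = 0 := hgs i hli.symm
    have key := base g hg0 hgs hgi
    have hcomm : A * L.t i j b = L.t i j b * A := by
      apply Subtype.ext
      refine Prod.ext ?_ (by simp [hA, tt, t])
      show tv (Pi.single last c) _ * tv (Pi.single i b) _ = tv (Pi.single i b) _ * tv (Pi.single last c) _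
      rw [tv_add_center hjl (by simp [hij.symm]), tv_add_center (by simp [hij.symm]) hjl, add_comm]
    rw [← key]
    unfold val
    have hA2 : proj ρ L.x f = ρ (L.lev A) * proj ρ L.x g * ρ (L.lev A)⁻¹ := by
      rw [show ρ (L.lev A) * proj ρ L.x g = proj ρ L.x f * ρ (L.lev A) from L.comm ρ A f, mul_assoc,
        ← map_mul, mul_inv_cancel, map_one, mul_one]
    have hA3 : ρ (L.lev A) * ρ (L.lev (L.t i j b)) = ρ (L.lev (L.t i j b)) * ρ (L.lev A) := by
      rw [← map_mul, ← map_mul, ← map_mul, ← map_mul, hcomm]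
    rw [hA2, ← mul_assoc, ← mul_assoc, ← hA3, LinearMap.trace_mul_comm, ← mul_assoc, ← mul_assoc,
      ← map_mul ρ (L.lev A)⁻¹, inv_mul_cancel, map_one, one_mul]

theorem card_fixed {i : Fin m} :
    (Finset.univ.filter fun f : Fin m → F => f i = 0).card = Fintype.card F ^ (m - 1) := by
  obtain ⟨m, rfl⟩ : ∃ k, m = k + 1 := ⟨m - 1, by have := i.2; omega⟩
  rw [← Fintype.card_subtype, Nat.add_sub_cancel, ← card_vec (F := F) m]
  exact Fintype.card_congr
    { toFun := fun f k => f.1 (i.succAbove k)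
      invFun := fun g => ⟨i.insertNth 0 g, by simp⟩
      left_inv := fun f => Subtype.ext (by
        conv_rhs => rw [← Fin.insertNth_self_removeNth i f.1]
        rw [f.2]; rfl)
      right_inv := fun g => by simp }

/-- The value of the Levi representation at an elementary transvection. -/
theorem val_zero_t (hm : 2 ≤ m) (htor : L.HasTorus) (hb1 : L.b ρ hm = 1) {i j : Fin m}
    (hi : i.1 = 0) (hj : j.1 = 1) {b : F} (hb : b ≠ 0) :
    L.val ρ (L.t i j b) 0 = (mult ρ L.x 0 : ℂ) - (Fintype.card F : ℂ) ^ (m - 1) := by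
  have hij : i ≠ j := fun h => by rw [h] at hi; omega
  have hd : (Pi.single j (1 : F) : Fin m → F) ⬝ᵥ Pi.single i b = 0 := by simp [hij.symm]
  have hchar : ρ.character (L.lev (L.t i j b)) = (mult ρ L.x 0 : ℂ) - 1 := by
    have h := L.conj_tv (Pi.single i b) (Pi.single j 1) (by simp [hb]) (by simp) hd
      (Pi.single i 1) (by simp)
    obtain ⟨c, hc⟩ := isConj_iff.1 h
    have e : L.lev (L.t i j b) = c * L.x (Pi.single i 1) * c⁻¹ := hc.symm
    rw [e, Representation.char_conj, L.char_x_eq hm (by simp), hb1]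
    simp
  have hsum : ρ.character (L.lev (L.t i j b)) = ∑ f : Fin m → F, L.val ρ (L.t i j b) f :=
    char_eq_sum L.x_add _
  rw [← Finset.sum_filter_add_sum_filter_not Finset.univ (fun f : Fin m → F => f i = 0)] at hsum
  have hmoved : ∑ f ∈ Finset.univ.filter (fun f : Fin m → F => ¬ f i = 0),
      L.val ρ (L.t i j b) f = 0 := by
    refine Finset.sum_eq_zero fun f hf => ?_
    have hfi : f i ≠ 0 := (Finset.mem_filter.1 hf).2
    -- `f` is the image of `g = f - f_i b e_j`
    set g := f + (-(f i * b)) • (Pi.single j 1 : Fin m → F) with hg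
    have hgv : g ᵥ* ((tv (Pi.single i b) (Pi.single j 1) : GL (Fin m) F) : Matrix (Fin m) (Fin m) F)
        = f := by
      rw [vecMul_tv hd]
      simp [hg, hij, hij.symm, add_assoc]
    have h := L.comm ρ (L.t i j b) g
    simp only [t, inv_one, Units.val_one, one_smul] at h
    rw [hgv] at h
    refine trace_moved L.x_add h fun hfg => hfi ?_
    have := congrFun hfg j
    simp [hg] at this
    exact this.resolve_right hb
  rw [hmoved, add_zero, ← Finset.add_sum_erase _ _ (show (0 : Fin m → F) ∈ _ by simp),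
    Finset.sum_congr rfl (g := fun _ => (1 : ℂ)) (fun f hf => L.val_t_eq_one hm htor hb1 hi hj b
      (Finset.ne_of_mem_erase hf) (Finset.mem_filter.1 (Finset.mem_of_mem_erase hf)).2),
    Finset.sum_const, Finset.card_erase_of_mem (by simp), card_fixed, nsmul_one] at hsum
  rw [Nat.cast_sub (Nat.one_le_pow _ _ Fintype.card_pos)] at hsum
  push_cast at hsum
  linear_combination hsum.symm.trans hchar

/-- The representation of the Levi group on the fixed space of the radical. -/
noncomputable def fixRep (ρ : Representation ℂ Γ V) :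
    Representation ℂ L.H (LinearMap.range (proj ρ L.x 0)) where
  toFun h := (ρ (L.lev h)).restrict (p := LinearMap.range (proj ρ L.x 0))
    (q := LinearMap.range (proj ρ L.x 0)) (by
      rintro _ ⟨v, rfl⟩
      refine ⟨ρ (L.lev h) v, ?_⟩
      rw [← Module.End.mul_apply, ← Module.End.mul_apply, L.comm_fixes (by simp [Fixes])])
  map_one' := by ext v; simp
  map_mul' h k := by ext v; simp

theorem char_fixRep (h : L.H) : (L.fixRep ρ).character h = L.val ρ h 0 := by
  set p := proj ρ L.x 0 with hp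
  have hc := L.comm_fixes (ρ := ρ) (h := h) (f := (0 : Fin m → F)) (by simp [Fixes])
  have e : ρ (L.lev h) * p = (LinearMap.range p).subtype ∘ₗ ((L.fixRep ρ h) ∘ₗ p.rangeRestrict) := by
    apply LinearMap.ext
    intro v
    rfl
  rw [val, e, LinearMap.trace_comp_comm', Representation.character]
  congr 1
  apply LinearMap.ext
  rintro ⟨_, v, rfl⟩
  simp only [LinearMap.comp_apply, Submodule.subtype_apply]
  congr 1
  apply Subtype.ext
  show p v = p (p v)
  rw [← Module.End.mul_apply, hp, proj_mul_proj L.x_add, if_pos rfl]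

end Level

end Cfsg.Agent.Lib.MinDegSL
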