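import Cfsg.Agent.Lib.MinDegSL.Five
import Mathlib.RingTheory.Coprime.Basic

/-! The smallest degree of a nontrivial complex representation of `SL n`. -/

set_option autoImplicit false

namespace Cfsg.Agent.Lib.MinDegSL

open Matrix Module
open Cfsg.Agent.Lib.Forms

universe u v

/-- `q + q² + ⋯ + q^(n-1)`. -/
def target (q n : ℕ) : ℕ := ∑ i ∈ Finset.Ico 1 n, q ^ i

theorem target_succ (q n : ℕ) (hn : 1 ≤ n) : target q (n + 1) = target q n + q ^ n := by
  rw [target, target, Finset.sum_Ico_succ_top hn]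

theorem target_mul (q n : ℕ) (hn : 1 ≤ n) (hq : 1 ≤ q) : target q n * (q - 1) + q = q ^ n := by
  induction n, hn using Nat.le_induction with
  | base => simp [target]
  | succ n hn ih =>
    rw [target_succ q n hn, add_mul, add_right_comm, ih]
    obtain ⟨r, rfl⟩ : ∃ r, q = r + 1 := ⟨q - 1, by omega⟩
    simp only [Nat.add_sub_cancel, pow_succ]
    ring

theorem target_le (q n : ℕ) (hn : 2 ≤ n) (hq : 2 ≤ q) : target q n ≤ 2 * (q ^ (n - 1) - 1) := by
  induction n, hn using Nat.le_induction with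
  | base => simp [target]; omega
  | succ n hn ih =>
    rw [target_succ q n (by omega), Nat.add_sub_cancel]
    have h1 : q ^ n = q * q ^ (n - 1) := by rw [← pow_succ', Nat.sub_add_cancel (by omega)]
    have h2 : 2 * q ^ (n - 1) ≤ q * q ^ (n - 1) := Nat.mul_le_mul_right _ hq
    have h3 : 1 ≤ q ^ (n - 1) := Nat.one_le_pow _ _ (by omega)
    omega

theorem target_eq_div (q n : ℕ) (hn : 1 ≤ n) (hq : 2 ≤ q) : (q ^ n - q) / (q - 1) = target q n := by
  have := target_mul q n hn (by omega)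
  apply Nat.div_eq_of_eq_mul_left (by omega)
  omega

theorem target_add_one (q n : ℕ) (hn : 1 ≤ n) (hq : 2 ≤ q) :
    (q ^ n - 1) / (q - 1) = target q n + 1 := by
  have := target_mul q n hn (by omega)
  apply Nat.div_eq_of_eq_mul_left (by omega)
  rw [add_mul, one_mul]; omega

/-- The degree just below the target is impossible. -/
theorem arith_one {q m k S : ℕ} (hq : 2 ≤ q) (hm : 2 ≤ m) (hk : k + 1 = target q (m + 1))
    (hS : S * (q - 1) = (q ^ (m + 1) - 1) * (q ^ m - 1)) (hd : k ∣ S * q ^ m) : False := by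
  obtain ⟨A, hA⟩ : ∃ A, target q (m + 1) = q * A := ⟨∑ i ∈ Finset.range m, q ^ i, by
    rw [target, Finset.sum_Ico_eq_sum_range, Nat.add_sub_cancel, Finset.mul_sum]
    exact Finset.sum_congr rfl fun i _ => by rw [add_comm, pow_succ']⟩
  have hT := target_mul q (m + 1) (by omega) (by omega)
  have hA' : A * (q - 1) = q ^ m - 1 := by
    apply Nat.eq_of_mul_eq_mul_left (show 0 < q by omega)
    rw [← mul_assoc, ← hA, Nat.mul_sub q, mul_one, ← pow_succ']
    omega
  have h2 : q ^ (m + 1) - 1 = (k + 2) * (q - 1) := by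
    have : (k + 2) * (q - 1) = (k + 1) * (q - 1) + (q - 1) := by ring
    rw [this, hk]; omega
  have hS' : S = (k + 2) * (q - 1) * A := by
    apply Nat.eq_of_mul_eq_mul_right (show 0 < q - 1 by omega)
    rw [hS, h2, ← hA']; ring
  have hcop : Nat.Coprime k q := by
    have hd1 : Nat.gcd k q ∣ k + 1 := by
      rw [hk, hA]; exact dvd_mul_of_dvd_left (Nat.gcd_dvd_right k q) A
    exact Nat.eq_one_of_dvd_one ((Nat.dvd_add_right (Nat.gcd_dvd_left k q)).1 hd1)
  have hd2 : k ∣ (k + 2) * (q - 1) * A := hS' ▸ (hcop.pow_right m).dvd_of_dvd_mul_right hd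
  have hd3 : k ∣ 2 * (q - 1) * A := by
    rw [show (k + 2) * (q - 1) * A = k * ((q - 1) * A) + 2 * (q - 1) * A by ring] at hd2
    exact (Nat.dvd_add_right (dvd_mul_right k _)).1 hd2
  have hd4 : k ∣ 2 * (q - 1) := by
    have := dvd_mul_of_dvd_left hd3 q
    rw [show 2 * (q - 1) * A * q = 2 * (q - 1) * (q * A) by ring, ← hA, ← hk, mul_add, mul_one] at this
    exact (Nat.dvd_add_right (dvd_mul_left k _)).1 this
  have hle := Nat.le_of_dvd (by omega) hd4
  have h5 : q ^ m ≤ target q (m + 1) := by rw [target_succ q m (by omega)]; omega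
  have h6 : q * q ≤ q ^ m := by rw [← pow_two]; exact Nat.pow_le_pow_right (by omega) hm
  have h7 : 2 * q ≤ q * q := Nat.mul_le_mul_right q hq
  omega

/-- The second degree below the target for `SL 3`. -/
theorem arith_two {q k S : ℕ} (hq : 2 ≤ q) (hq' : IsPrimePow q) (h2 : q ≠ 2) (h4 : q ≠ 4)
    (hk : k + 2 = target q 3) (hS : S * (q - 1) = (q ^ 3 - 1) * (q ^ 2 - 1)) (hd : k ∣ S * q ^ 2) :
    False := by
  obtain ⟨r, rfl⟩ : ∃ r, q = r + 1 := ⟨q - 1, by omega⟩
  simp only [Nat.add_sub_cancel] at hS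
  have e3 : (r + 1) ^ 3 - 1 = r * ((r + 1) ^ 2 + (r + 1) + 1) := by
    have : (r + 1) ^ 3 = r * ((r + 1) ^ 2 + (r + 1) + 1) + 1 := by ring
    omega
  have e2 : (r + 1) ^ 2 - 1 = r * (r + 2) := by
    have : (r + 1) ^ 2 = r * (r + 2) + 1 := by ring
    omega
  have hS' : S = r * ((r + 1) ^ 2 + (r + 1) + 1) * (r + 2) := by
    apply Nat.eq_of_mul_eq_mul_right (show 0 < r by omega)
    rw [hS, e3, e2]; ring
  have hk' : k = r * (r + 3) := by
    have : target (r + 1) 3 = r * (r + 3) + 2 := by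
      rw [target_succ _ 2 (by omega)]
      simp [target]
      ring
    omega
  rw [hk', hS', show r * ((r + 1) ^ 2 + (r + 1) + 1) * (r + 2) * (r + 1) ^ 2 =
      r * (((r + 1) ^ 2 + (r + 1) + 1) * (r + 2) * (r + 1) ^ 2) by ring] at hd
  have hd' := Nat.dvd_of_mul_dvd_mul_left (show 0 < r by omega) hd
  have h12 : r + 3 ∣ 12 := by
    have hz : ((r + 3 : ℕ) : ℤ) ∣ ((((r + 1) ^ 2 + (r + 1) + 1) * (r + 2) * (r + 1) ^ 2 : ℕ) : ℤ) :=
      Int.natCast_dvd_natCast.2 hd'
    push_cast at hz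
    have h' : ((r : ℤ) + 3) ∣ (-12 : ℤ) := by
      have h1 : ((r : ℤ) + 3) ∣ (((r : ℤ) + 1) ^ 2 + ((r : ℤ) + 1) + 1) * ((r : ℤ) + 2) * ((r : ℤ) + 1) ^ 2 + 12 :=
        ⟨(r : ℤ) ^ 4 + 4 * (r : ℤ) ^ 3 + 8 * (r : ℤ) ^ 2 + 5 * (r : ℤ) + 6, by ring⟩
      have := dvd_sub hz h1
      simpa using this
    rw [dvd_neg] at h'
    exact_mod_cast h'
  have hle := Nat.le_of_dvd (by norm_num) h12
  have hr : r ≤ 9 := by omega
  interval_cases r <;> norm_num at *
  all_goals (rcases (isPrimePow_nat_iff _).1 hq' with ⟨p, n, hp, hn, he⟩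
             have h25 : 2 ∣ p ^ n ∧ 5 ∣ p ^ n := by omega
             have := (Nat.prime_dvd_prime_iff_eq Nat.prime_two hp).1 (Nat.prime_two.dvd_of_dvd_pow h25.1)
             have := (Nat.prime_dvd_prime_iff_eq (by norm_num) hp).1 ((by norm_num : Nat.Prime 5).dvd_of_dvd_pow h25.2)
             omega)

variable {F : Type u} [Field F] [Fintype F] [DecidableEq F]

/-- The irreducible case. -/
theorem bound_irr {m : ℕ} (hm : 2 ≤ m)
    (hex : (m + 1, Fintype.card F) ≠ (3, 2) ∧ (m + 1, Fintype.card F) ≠ (3, 4) ∧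
      (m + 1, Fintype.card F) ≠ (4, 2) ∧ (m + 1, Fintype.card F) ≠ (4, 3))
    (ih : 3 ≤ m → ((m, Fintype.card F) ≠ (3, 2) ∧ (m, Fintype.card F) ≠ (3, 4) ∧
        (m, Fintype.card F) ≠ (4, 2) ∧ (m, Fintype.card F) ≠ (4, 3)) →
      ∀ (U : Type v) [AddCommGroup U] [Module ℂ U] [FiniteDimensional ℂ U]
        (σ : Representation ℂ (Matrix.SpecialLinearGroup (Fin m) F) U), (∃ g, σ g ≠ 1) →
          target (Fintype.card F) m ≤ finrank ℂ U)
    {V : Type v} [AddCommGroup V] [Module ℂ V] [FiniteDimensional ℂ V]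
    (ρ : Representation ℂ (Matrix.SpecialLinearGroup (Fin (m + 1)) F) V) (hirr : ρ.IsIrreducible)
    (hρ : ∃ g, ρ g ≠ 1) : target (Fintype.card F) (m + 1) ≤ finrank ℂ V := by
  have hq2 : 2 ≤ (Fintype.card F) := Fintype.one_lt_card
  by_contra hlt
  push Not at hlt
  set L := levelSL F m hm with hL
  let i0 : Fin m := ⟨0, by omega⟩
  let j0 : Fin m := ⟨1, by omega⟩
  obtain ⟨hb1, hk⟩ := L.step (ρ := ρ) hm (v := Pi.single i0 1) (x_nontrivial hm hρ (by simp))
    (lt_of_lt_of_le hlt (by simpa using target_le (Fintype.card F) (m + 1) (by omega) hq2))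
  set c := finrank ℂ (LinearMap.range (proj ρ L.x 0)) with hc
  have htor : L.HasTorus := hasTorus_SL hm
    (fun h => ⟨fun e => hex.1 (by rw [h, e]), fun e => hex.2.1 (by rw [h, e])⟩)
    (fun h => by
      have h1 : (Fintype.card F) ≠ 2 := fun e => hex.2.2.1 (by rw [h, e])
      have h2 : (Fintype.card F) ≠ 3 := fun e => hex.2.2.2 (by rw [h, e])
      show 3 < (Fintype.card F)
      omega)
  have hd := dvd_of_step hm hirr hb1
  have hS := card_tclass (F := F) hm
  have hT := target_succ (Fintype.card F) m (by omega)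
  have hqm : 1 ≤ (Fintype.card F) ^ m := Nat.one_le_pow _ _ (by omega)
  have hone : finrank ℂ V + 1 = target (Fintype.card F) (m + 1) → False := fun h => arith_one hq2 hm h hS hd
  rcases (show m = 2 ∨ 3 ≤ m by omega) with rfl | hm3
  · -- `SL 3`
    have hc2 : (Fintype.card F) ≤ c + 1 := Level.le_fix_two L htor hb1
    have hT2 : target (Fintype.card F) 2 = (Fintype.card F) := by simp [target]
    have : finrank ℂ V + 1 = target (Fintype.card F) (2 + 1) ∨ finrank ℂ V + 2 = target (Fintype.card F) (2 + 1) := by omega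
    rcases this with h | h
    · exact hone h
    · exact arith_two hq2 (Fintype.isPrimePow_card_of_field (α := F))
        (fun e => hex.1 (by rw [e])) (fun e => hex.2.1 (by rw [e])) h hS hd
  by_cases hpre : (m, (Fintype.card F)) ≠ (3, 2) ∧ (m, (Fintype.card F)) ≠ (3, 4) ∧ (m, (Fintype.card F)) ≠ (4, 2) ∧ (m, (Fintype.card F)) ≠ (4, 3)
  · -- the fixed space carries a nontrivial representation of `SL m`
    let em : Matrix.SpecialLinearGroup (Fin m) F →* L.H :=
      { toFun := fun A => ⟨(Matrix.SpecialLinearGroup.toGL A, 1), L.sl_mem A⟩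
        map_one' := Subtype.ext (by simp)
        map_mul' := fun A B => Subtype.ext (by simp) }
    have hne : ∃ g, (L.fixRep ρ).comp em g ≠ 1 := by
      refine ⟨slTv (Pi.single i0 1) (Pi.single j0 1), fun h => ?_⟩
      have h2 : em (slTv (Pi.single i0 1) (Pi.single j0 1)) = L.t i0 j0 1 :=
        Subtype.ext (Prod.ext (Units.ext rfl) rfl)
      have h3 : (L.fixRep ρ).character (L.t i0 j0 1) = (c : ℂ) := by
        rw [← h2]
        show LinearMap.trace ℂ _ ((L.fixRep ρ).comp em _) = _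
        rw [h, LinearMap.trace_one]
      rw [L.char_fix_t hm htor hb1 rfl rfl one_ne_zero, ← hc, sub_eq_self] at h3
      exact qm_ne (F := F) _ h3
    have := ih hm3 hpre _ ((L.fixRep ρ).comp em) hne
    exact hone (by omega)
  -- the three exceptional predecessors
  push Not at hpre
  have hm34 : (m = 3 ∧ (Fintype.card F) = 4) ∨ (m = 4 ∧ (Fintype.card F) = 2) ∨ (m = 4 ∧ (Fintype.card F) = 3) := by
    by_cases h1 : (m, (Fintype.card F)) = (3, 2)
    · exact absurd (by simp only [Prod.mk.injEq] at h1 ⊢; omega) hex.2.2.1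
    by_cases h2 : (m, (Fintype.card F)) = (3, 4)
    · simp only [Prod.mk.injEq] at h2; omega
    by_cases h3 : (m, (Fintype.card F)) = (4, 2)
    · simp only [Prod.mk.injEq] at h3; omega
    have h4 := hpre h1 h2 h3
    simp only [Prod.mk.injEq] at h4; omega
  rcases hm34 with ⟨rfl, hq4⟩ | ⟨rfl, hq4⟩ | ⟨rfl, hq4⟩
  · have h4 : Fintype.card F = 4 := hq4
    have hlt' : finrank ℂ V < 84 := by simpa [target, hq4, Finset.sum_Ico_succ_top] using hlt
    rw [h4] at hk
    norm_num at hk
    obtain ⟨hb2, hc2⟩ := L.next_step (ρ := ρ) (toDetOne F 3) (toDetOne_tv hm) le_rfl htor hb1 (by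
      rw [← hc, h4]; norm_num; omega)
    have h3 := Level.le_fix_two (levelGL F 2 le_rfl) (ρ := L.next (toDetOne F 3) ρ)
      (hasTorus_GL le_rfl (fun _ => by omega)) hb2
    rw [h4] at hc2 h3
    norm_num at hc2
    rw [← hc] at hc2
    rw [hq4] at hS
    norm_num at hS
    have hS' : (tclass F 3 hm).card = 5355 := by omega
    rw [hS', h4] at hd
    have : 81 ≤ finrank ℂ V := by omega
    interval_cases h : finrank ℂ V <;> norm_num at hd
  · have h4 : Fintype.card F = 2 := hq4
    have hlt' : finrank ℂ V < 30 := by simpa [target, hq4, Finset.sum_Ico_succ_top] using hlt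
    rw [h4] at hk
    norm_num at hk
    have hc14 : c ≠ 14 := fun h => hone (by
      have : target (Fintype.card F) (4 + 1) = 30 := by simp [target, h4, Finset.sum_Ico_succ_top]
      omega)
    obtain ⟨hb2, hc2⟩ := L.next_step (ρ := ρ) (toDetOne F 4) (toDetOne_tv hm) (by omega) htor hb1 (by
      rw [← hc, h4]; norm_num; omega)
    rw [h4] at hc2
    norm_num at hc2
    rw [← hc] at hc2
    rw [hq4] at hS
    norm_num at hS
    rw [hS, h4] at hd
    have : 22 ≤ finrank ℂ V := by omega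
    interval_cases h : finrank ℂ V <;> norm_num at hd
    exact five_contra h4 hm hb1 (show c = 9 by omega)
  · have h4 : Fintype.card F = 3 := hq4
    have hlt' : finrank ℂ V < 120 := by simpa [target, hq4, Finset.sum_Ico_succ_top] using hlt
    rw [h4] at hk
    norm_num at hk
    obtain ⟨hb2, hc2⟩ := L.next_step (ρ := ρ) (toDetOne F 4) (toDetOne_tv hm) (by omega) htor hb1 (by
      rw [← hc, h4]; norm_num; omega)
    rw [h4] at hc2
    norm_num at hc2
    rw [← hc] at hc2
    obtain ⟨hb3, hc3⟩ := (levelGL F 3 (by omega)).next_step (ρ := L.next (toDetOne F 4) ρ)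
      (toTop F 3 (by omega)) (toTop_tv (by omega)) le_rfl (hasTorus_GL (by omega) (fun _ => by omega))
      hb2 (by rw [h4]; norm_num; omega)
    have h3 := Level.le_fix_two (levelGL F 2 le_rfl)
      (ρ := (levelGL F 3 (by omega)).next (toTop F 3 (by omega)) (L.next (toDetOne F 4) ρ))
      (hasTorus_GL le_rfl (fun _ => by omega)) hb3
    rw [h4] at hc3 h3
    norm_num at hc3
    rw [hq4] at hS
    norm_num at hS
    have hS' : (tclass F 4 hm).card = 9680 := by omega
    rw [hS', h4] at hd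
    have : 116 ≤ finrank ℂ V := by omega
    interval_cases h : finrank ℂ V <;> norm_num at hd

/-- The bound for every nontrivial representation. -/
theorem bound : ∀ (n : ℕ), 3 ≤ n → ((n, Fintype.card F) ≠ (3, 2) ∧ (n, Fintype.card F) ≠ (3, 4) ∧
      (n, Fintype.card F) ≠ (4, 2) ∧ (n, Fintype.card F) ≠ (4, 3)) →
    ∀ (V : Type v) [AddCommGroup V] [Module ℂ V] [FiniteDimensional ℂ V]
      (ρ : Representation ℂ (Matrix.SpecialLinearGroup (Fin n) F) V), (∃ g, ρ g ≠ 1) →
        target (Fintype.card F) n ≤ finrank ℂ V := by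
  intro n
  induction n using Nat.strong_induction_on with
  | _ n ih =>
    intro hn hex
    obtain ⟨m, rfl⟩ : ∃ m, n = m + 1 := ⟨n - 1, by omega⟩
    refine le_finrank_of_irreducible fun U _ _ _ σ hσ hne => ?_
    exact bound_irr (show 2 ≤ m by omega) hex (fun hm3 hpre => ih m (by omega) hm3 hpre) σ hσ hne

end Cfsg.Agent.Lib.MinDegSL
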