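import Cfsg.Agent.Lib.MinDegSL.Main
import Cfsg.Agent.Lib.Classical.Order
import Cfsg.Agent.Lib.Char.Degree
import Cfsg.Agent.Lib.Perm.Modules
import Cfsg.Prelude.Def_Perm
import Mathlib.LinearAlgebra.Projectivization.Action
import Mathlib.LinearAlgebra.Projectivization.Cardinality

/-! Permutation representations of `SL n`. -/

set_option autoImplicit false

namespace Cfsg.Agent.Lib.MinDegSL

open Matrix Module MulAction
open Cfsg.Agent.Lib.Forms

universe u v w

section general

variable {G : Type u} [Group G] {Ω : Type v} [MulAction G Ω] [Fintype Ω]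

theorem finrank_sumZero [Nonempty Ω] :
    finrank ℂ (Cfsg.permSumZero ℂ G Ω).toSubmodule = Fintype.card Ω - 1 := by
  classical
  let φ : (Ω → ℂ) →ₗ[ℂ] ℂ := ∑ x, LinearMap.proj x
  have hker : (Cfsg.permSumZero ℂ G Ω).toSubmodule = LinearMap.ker φ := by
    ext f
    rw [Perm.mem_permSumZero, LinearMap.mem_ker]
    simp [φ]
  have hφ : LinearMap.range φ = ⊤ := by
    rw [LinearMap.range_eq_top]
    intro c
    exact ⟨Pi.single (Classical.arbitrary Ω) c, by simp [φ]⟩
  have := LinearMap.finrank_range_add_finrank_ker φ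
  rw [hφ, finrank_top, Module.finrank_self, Module.finrank_pi] at this
  rw [hker]
  omega

/-- No nonzero sum-zero function is invariant. -/
theorem eq_zero_of_fixed [IsPretransitive G Ω] {f : Ω → ℂ} (hs : ∑ x, f x = 0)
    (h : ∀ g : G, Cfsg.permRep ℂ G Ω g f = f) : f = 0 := by
  funext a
  have hc : ∀ b, f b = f a := by
    intro b
    obtain ⟨g, hg⟩ := exists_smul_eq G b a
    have := congrFun (h g⁻¹) b
    rw [Perm.permRep_apply, inv_inv, hg] at this
    exact this.symm
  simp only [hc, Finset.sum_const, nsmul_eq_mul, mul_eq_zero, Nat.cast_eq_zero, Finset.card_univ] at hs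
  haveI : Nonempty Ω := ⟨a⟩
  exact hs.resolve_left Fintype.card_ne_zero

/-- A subrepresentation of the sum-zero representation with trivial action is zero. -/
theorem eq_bot_of_trivial [IsPretransitive G Ω]
    (U : Subrepresentation (Cfsg.permSumZero ℂ G Ω).toRepresentation)
    (h : ∀ g, U.toRepresentation g = 1) : U = ⊥ := by
  apply Subrepresentation.toSubmodule_injective
  show U.toSubmodule = ⊥
  rw [Submodule.eq_bot_iff]
  intro f hf
  apply Subtype.ext
  refine eq_zero_of_fixed (G := G) (Perm.mem_permSumZero.1 f.2) fun g => ?_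
  exact congrArg (fun z : U.toSubmodule => ((z : (Cfsg.permSumZero ℂ G Ω).toSubmodule) : Ω → ℂ))
    (LinearMap.congr_fun (h g) ⟨f, hf⟩)

theorem sumZero_nontrivial [IsPretransitive G Ω] (h2 : 2 ≤ Fintype.card Ω) :
    ∃ g, (Cfsg.permSumZero ℂ G Ω).toRepresentation g ≠ 1 := by
  classical
  by_contra hc
  push Not at hc
  obtain ⟨a, b, hab⟩ := Fintype.exists_pair_of_one_lt_card (α := Ω) (by omega)
  have hs : ∑ x, (Pi.single a (1 : ℂ) - Pi.single b 1 : Ω → ℂ) x = 0 := by simp
  have := eq_zero_of_fixed (G := G) hs fun g => congrArg Subtype.val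
    (LinearMap.congr_fun (hc g) ⟨_, Perm.mem_permSumZero.2 hs⟩)
  have := congrFun this a
  simp [hab] at this

/-- The sum-zero representation is irreducible when nontrivial representations are large. -/
theorem sumZero_irreducible [IsPretransitive G Ω] [Finite G] {B : ℕ}
    (hB : ∀ (U : Type v) [AddCommGroup U] [Module ℂ U] [FiniteDimensional ℂ U]
      (σ : Representation ℂ G U), (∃ g, σ g ≠ 1) → B ≤ finrank ℂ U)
    (h2 : 2 ≤ Fintype.card Ω) (hlt : Fintype.card Ω - 1 < 2 * B) :
    (Cfsg.permSumZero ℂ G Ω).toRepresentation.IsIrreducible := by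
  set ρ := (Cfsg.permSumZero ℂ G Ω).toRepresentation with hρ
  haveI : Nonempty Ω := Fintype.card_pos_iff.1 (by omega)
  haveI : Fintype G := Fintype.ofFinite G
  haveI : NeZero (Nat.card G : ℂ) := ⟨Nat.cast_ne_zero.2 Nat.card_pos.ne'⟩
  have hd : finrank ℂ (Cfsg.permSumZero ℂ G Ω).toSubmodule = Fintype.card Ω - 1 := finrank_sumZero
  have hne : (⊥ : Subrepresentation ρ) ≠ ⊤ := by
    intro e
    have := congrArg (fun U : Subrepresentation ρ => finrank ℂ U.toSubmodule) e
    replace this : finrank ℂ (⊥ : Subrepresentation ρ).toSubmodule =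
        finrank ℂ (⊤ : Subrepresentation ρ).toSubmodule := this
    rw [show (⊥ : Subrepresentation ρ).toSubmodule = ⊥ from rfl,
      show (⊤ : Subrepresentation ρ).toSubmodule = ⊤ from rfl, finrank_bot, finrank_top, hd] at this
    omega
  refine { exists_pair_ne := ⟨⊥, ⊤, hne⟩, eq_bot_or_eq_top := fun U => ?_ }
  obtain ⟨U', hU'⟩ := exists_isCompl U
  by_contra hc
  push Not at hc
  have hU'0 : U' ≠ ⊥ := fun e => hc.2 (by simpa [e] using hU'.sup_eq_top)
  have key : ∀ W : Subrepresentation ρ, W ≠ ⊥ → B ≤ finrank ℂ W.toSubmodule := by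
    intro W hW
    refine hB W.toSubmodule W.toRepresentation ?_
    by_contra h
    push Not at h
    exact hW (eq_bot_of_trivial W h)
  have hco : IsCompl U.toSubmodule U'.toSubmodule :=
    ⟨disjoint_iff.2 (congrArg Subrepresentation.toSubmodule hU'.1.eq_bot),
      codisjoint_iff.2 (congrArg Subrepresentation.toSubmodule hU'.2.eq_top)⟩
  have hsum := Submodule.finrank_add_eq_of_isCompl hco
  have h1 := key U hc.1
  have h3 := key U' hU'0
  rw [hd] at hsum
  omega

end general

variable {F : Type u} [Field F] [Fintype F] [DecidableEq F]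

/-- Existence of an irreducible representation of the target degree. -/
theorem exists_target (n : ℕ) (hn : 3 ≤ n)
    (hex : (n, Fintype.card F) ≠ (3, 2) ∧ (n, Fintype.card F) ≠ (3, 4) ∧
      (n, Fintype.card F) ≠ (4, 2) ∧ (n, Fintype.card F) ≠ (4, 3)) :
    ∃ ρ : Representation ℂ (Matrix.SpecialLinearGroup (Fin n) F) (Fin (target (Fintype.card F) n) → ℂ),
      ρ.IsIrreducible := by
  let P := Projectivization F (Fin n → F)
  haveI : Fintype P := Fintype.ofFinite P
  haveI : IsPretransitive (Matrix.SpecialLinearGroup (Fin n) F) P :=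
    MulAction.isPretransitive_of_is_two_pretransitive
  have hq : 2 ≤ Fintype.card F := Fintype.one_lt_card
  have hc : Fintype.card P = target (Fintype.card F) n + 1 := by
    rw [← target_add_one _ n (by omega) hq, ← Nat.card_eq_fintype_card, Projectivization.card'',
      Nat.card_fun, Nat.card_eq_fintype_card, Nat.card_eq_fintype_card, Fintype.card_fin]
  have hT : 0 < target (Fintype.card F) n :=
    Finset.sum_pos (fun i _ => pow_pos (by omega) i) ⟨1, by simp; omega⟩
  set W := (Cfsg.permSumZero ℂ (Matrix.SpecialLinearGroup (Fin n) F) P).toSubmodule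
  haveI : Nonempty P := Fintype.card_pos_iff.1 (by omega)
  have hd : finrank ℂ W = target (Fintype.card F) n := by
    rw [finrank_sumZero, hc, Nat.add_sub_cancel]
  have hirr := sumZero_irreducible (G := Matrix.SpecialLinearGroup (Fin n) F) (Ω := P)
    (B := target (Fintype.card F) n) (fun U _ _ _ σ h => bound n hn hex U σ h) (by omega) (by omega)
  let e : W ≃ₗ[ℂ] (Fin (target (Fintype.card F) n) → ℂ) := (Module.finBasisOfFinrankEq ℂ W hd).equivFun
  exact ⟨Char.transport _ e, Char.isIrreducible_of_equiv (Char.transportEquiv _ e) hirr⟩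

/-- In the three exceptional cases every transvection moves every point of a small action. -/
theorem fixed_point_free {m : ℕ} (hm : 2 ≤ m) {Ω : Type v} [Fintype Ω]
    [MulAction (Matrix.SpecialLinearGroup (Fin (m + 1)) F) Ω]
    [IsPretransitive (Matrix.SpecialLinearGroup (Fin (m + 1)) F) Ω]
    (hcard : Fintype.card Ω = Fintype.card F ^ m) {a φ : Fin (m + 1) → F} (ha : a ≠ 0) (hφ : φ ≠ 0)
    (h : φ ⬝ᵥ a = 0) (ω : Ω) : slTv a φ • ω ≠ ω := by
  classical
  intro hω
  set L := levelSL F m hm with hL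
  let i0 : Fin m := ⟨0, by omega⟩
  let e : Fin m → F := Pi.single i0 1
  have he : e ≠ 0 := by simp [e]
  set π := Fintype.card (fixedBy Ω (L.x e)) with hπ
  have hconst : ∀ v : Fin m → F, v ≠ 0 → Fintype.card (fixedBy Ω (L.x v)) = π := by
    intro v hv
    obtain ⟨c, hc⟩ := isConj_iff.1 (isConj_x hm he hv)
    refine (Fintype.card_congr
      { toFun := fun z : fixedBy Ω (L.x e) => (⟨c • (z : Ω), ?_⟩ : fixedBy Ω (L.x v))
        invFun := fun z : fixedBy Ω (L.x v) => (⟨c⁻¹ • (z : Ω), ?_⟩ : fixedBy Ω (L.x e))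
        left_inv := fun z => Subtype.ext (inv_smul_smul c (z : Ω))
        right_inv := fun z => Subtype.ext (smul_inv_smul c (z : Ω)) }).symm
    · have hz := z.2
      rw [mem_fixedBy] at hz ⊢
      rw [← hc, ← mul_smul, inv_mul_cancel_right, mul_smul, hz]
    · have hz := z.2
      rw [mem_fixedBy] at hz ⊢
      rw [← smul_left_cancel_iff c, smul_inv_smul, ← mul_smul, ← mul_smul, hc]
      exact hz
  let f : Multiplicative (Fin m → F) →* Matrix.SpecialLinearGroup (Fin (m + 1)) F :=
    MonoidHom.mk' (fun v => L.x (Multiplicative.toAdd v)) (fun a b => L.x_add _ _)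
  letI : MulAction (Multiplicative (Fin m → F)) Ω := MulAction.compHom Ω f
  have hb := MulAction.sum_card_fixedBy_eq_card_orbits_mul_card_group (Multiplicative (Fin m → F)) Ω
  have hsum : (∑ g : Multiplicative (Fin m → F), Fintype.card (fixedBy Ω g)) =
      Fintype.card F ^ m + (Fintype.card F ^ m - 1) * π := by
    rw [← Finset.add_sum_erase _ _ (Finset.mem_univ (1 : Multiplicative (Fin m → F))),
      Finset.sum_congr rfl (g := fun _ => π) (fun g hg => ?_), Finset.sum_const,
      Finset.card_erase_of_mem (Finset.mem_univ _), Finset.card_univ, Fintype.card_multiplicative,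
      card_vec, smul_eq_mul]
    · congr 1
      rw [← hcard]
      exact Fintype.card_congr
        ((Equiv.setCongr (fixedBy_one_eq_univ Ω (Multiplicative (Fin m → F)))).trans (Equiv.Set.univ Ω))
    · have hg0 : Multiplicative.toAdd g ≠ 0 := fun h0 => Finset.ne_of_mem_erase hg (by
        rw [← ofAdd_toAdd g, h0]; rfl)
      rw [← hconst _ hg0]
      exact Fintype.card_congr (Equiv.setCongr (by ext z; rfl))
  rw [hsum, Fintype.card_multiplicative, card_vec] at hb
  have hπle : π ≤ Fintype.card F ^ m := hcard ▸ Fintype.card_subtype_le _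
  have hπ0 : 0 < π := by
    rw [hπ, Fintype.card_pos_iff]
    obtain ⟨c, hc⟩ := isConj_iff.1 (exists_conj_tv hm ha hφ h he)
    refine ⟨⟨c⁻¹ • ω, ?_⟩⟩
    show L.x e • c⁻¹ • ω = c⁻¹ • ω
    rw [← smul_left_cancel_iff c, smul_inv_smul, ← mul_smul, ← mul_smul, hc]
    exact hω
  have hdvd : Fintype.card F ^ m ∣ π := by
    have h1 : Fintype.card F ^ m ∣ Fintype.card F ^ m + (Fintype.card F ^ m - 1) * π :=
      hb ▸ dvd_mul_left _ _
    have h3 : Fintype.card F ^ m ∣ (Fintype.card F ^ m - 1) * π + π := by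
      rw [← Nat.succ_mul, Nat.succ_eq_add_one, Nat.sub_add_cancel (Nat.one_le_pow m _ Fintype.card_pos)]
      exact dvd_mul_right _ _
    exact (Nat.dvd_add_right ((Nat.dvd_add_right dvd_rfl).1 h1)).1 h3
  have hπeq : π = Fintype.card F ^ m := le_antisymm hπle (Nat.le_of_dvd hπ0 hdvd)
  have htriv : ∀ z : Ω, L.x e • z = z := by
    intro z
    have : fixedBy Ω (L.x e) = Set.univ := by
      apply Set.eq_univ_of_forall
      intro y
      by_contra hy
      have := Fintype.card_subtype_lt (p := fun y => y ∈ fixedBy Ω (L.x e)) hy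
      rw [hcard] at this
      change π < _ at this
      omega
    have := this ▸ Set.mem_univ z
    exact this
  -- then the representation is trivial
  have h2 : 2 ≤ Fintype.card Ω := by
    rw [hcard]; exact le_trans Fintype.one_lt_card (Nat.le_self_pow (by omega) _)
  refine x_nontrivial hm (sumZero_nontrivial (G := Matrix.SpecialLinearGroup (Fin (m + 1)) F) h2) he ?_
  apply LinearMap.ext
  intro fz
  apply Subtype.ext
  funext z
  show (fz : Ω → ℂ) ((L.x e)⁻¹ • z) = (fz : Ω → ℂ) z
  rw [show (L.x e)⁻¹ • z = z from inv_smul_eq_iff.2 (htriv z).symm]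

/-- The order of `SL n`. -/
theorem card_sl {n : ℕ} (hn : 1 ≤ n) :
    (Fintype.card F - 1) * Nat.card (Matrix.SpecialLinearGroup (Fin n) F) =
      ∏ i : Fin n, (Fintype.card F ^ n - Fintype.card F ^ (i : ℕ)) :=
  Classical.card_SL_mul rfl n hn

/-- A transitive action has more points than the target, or an exceptional shape. -/
theorem small_action {m : ℕ} (hm : 2 ≤ m) {Ω : Type v} [Fintype Ω]
    [MulAction (Matrix.SpecialLinearGroup (Fin (m + 1)) F) Ω]
    [IsPretransitive (Matrix.SpecialLinearGroup (Fin (m + 1)) F) Ω] (h2 : 2 ≤ Fintype.card Ω)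
    (hlt : Fintype.card Ω - 1 < 2 * (Fintype.card F ^ m - 1)) :
    Fintype.card F ^ m ≤ Fintype.card Ω ∧
      Fintype.card Ω - 1 ∣ Nat.card (Matrix.SpecialLinearGroup (Fin (m + 1)) F) ∧
      Fintype.card Ω ∣ Nat.card (Matrix.SpecialLinearGroup (Fin (m + 1)) F) := by
  haveI : Nonempty Ω := Fintype.card_pos_iff.1 (by omega)
  refine ⟨?_, ?_, ?_⟩
  · have := weak_bound (F := F) hm
      (sumZero_nontrivial (G := Matrix.SpecialLinearGroup (Fin (m + 1)) F) h2)
    rw [finrank_sumZero] at this
    omega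
  · haveI hirr := sumZero_irreducible (G := Matrix.SpecialLinearGroup (Fin (m + 1)) F)
      (fun U _ _ _ σ h => weak_bound (F := F) hm h) h2 hlt
    have hχ := Char.isIrrCharacter_character
      (Cfsg.permSumZero ℂ (Matrix.SpecialLinearGroup (Fin (m + 1)) F) Ω).toRepresentation
    have := Char.charDegree_dvd_card hχ
    rwa [Char.charDegree_eq_of_apply_one (Representation.char_one _), finrank_sumZero] at this
  · rw [← Nat.card_eq_fintype_card,
      ← MulAction.index_stabilizer_of_transitive (Matrix.SpecialLinearGroup (Fin (m + 1)) F)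
        (Classical.arbitrary Ω)]
    exact Subgroup.index_dvd_card _

/-- Over a field of characteristic two an involution of `SL 3` is a transvection. -/
theorem involution_slTv (h2 : (2 : F) = 0) {g : Matrix.SpecialLinearGroup (Fin 3) F}
    (hg : g * g = 1) (hg1 : g ≠ 1) :
    ∃ a φ : Fin 3 → F, a ≠ 0 ∧ φ ≠ 0 ∧ φ ⬝ᵥ a = 0 ∧ g = slTv a φ := by
  set N : Matrix (Fin 3) (Fin 3) F := (g : Matrix (Fin 3) (Fin 3) F) - 1 with hN
  have hgg : (g : Matrix (Fin 3) (Fin 3) F) * g = 1 := by
    rw [← Matrix.SpecialLinearGroup.coe_mul, hg, Matrix.SpecialLinearGroup.coe_one]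
  have hNN : N * N = 0 := by
    rw [hN]
    simp only [mul_sub, sub_mul, mul_one, one_mul, hgg]
    rw [show (1 : Matrix (Fin 3) (Fin 3) F) - g - (g - 1) =
      (2 : F) • (1 : Matrix (Fin 3) (Fin 3) F) - (2 : F) • (g : Matrix (Fin 3) (Fin 3) F) by
        rw [two_smul, two_smul]; abel, h2, zero_smul, zero_smul, sub_zero]
  have hN0 : N ≠ 0 := by
    intro h
    exact hg1 (Subtype.ext (by rw [hN, sub_eq_zero] at h; exact h))
  let f := N.mulVecLin
  have hle : LinearMap.range f ≤ LinearMap.ker f := by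
    rintro _ ⟨x, rfl⟩
    simp [f, hNN]
  have hrk := LinearMap.finrank_range_add_finrank_ker f
  have hrle := Submodule.finrank_mono hle
  rw [Module.finrank_pi, Fintype.card_fin] at hrk
  have hr1 : finrank F (LinearMap.range f) ≤ 1 := by omega
  obtain ⟨k, l, hkl⟩ : ∃ k l, N k l ≠ 0 := by
    by_contra h
    push Not at h
    exact hN0 (Matrix.ext fun i j => h i j)
  set a : Fin 3 → F := fun i => N i l with ha
  have haR : a ∈ LinearMap.range f := ⟨Pi.single l 1, by funext i; simp [f, a]⟩
  have ha0 : a ≠ 0 := fun h => hkl (congrFun h k)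
  have hne : (⟨a, haR⟩ : LinearMap.range f) ≠ 0 := fun h => ha0 (congrArg Subtype.val h)
  have hfr : finrank F (LinearMap.range f) = 1 := by
    have : 0 < finrank F (LinearMap.range f) := by
      haveI : Nontrivial (LinearMap.range f) := nontrivial_of_ne _ _ hne
      exact Module.finrank_pos
    omega
  have hcol : ∀ j, ∃ c : F, ∀ i, N i j = c * a i := by
    intro j
    obtain ⟨c, hc⟩ := (finrank_eq_one_iff_of_nonzero' _ hne).1 hfr
      ⟨fun i => N i j, ⟨Pi.single j 1, by funext i; simp [f]⟩⟩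
    exact ⟨c, fun i => (congrFun (congrArg Subtype.val hc) i).symm⟩
  choose φ hφ using hcol
  have hNeq : N = vecMulVec a φ := Matrix.ext fun i j => by rw [hφ j i, vecMulVec_apply, mul_comm]
  have hφ0 : φ ≠ 0 := fun h => hN0 (by rw [hNeq, h]; simp)
  have hφa : φ ⬝ᵥ a = 0 := by
    rw [hNeq, vecMulVec_mul_vecMulVec, vecMulVec_smul] at hNN
    by_contra h
    exact hN0 (by rw [hNeq]; exact (smul_eq_zero.1 hNN).resolve_left h)
  refine ⟨a, φ, ha0, hφ0, hφa, Subtype.ext ?_⟩
  show _ = ((tv a φ : GL (Fin 3) F) : Matrix (Fin 3) (Fin 3) F)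
  rw [tv_val hφa, tvMat, ← hNeq, hN]
  abel

/-- No action of `SL 3` on `q²` points when the stabiliser has even order. -/
theorem no_action_three {Ω : Type v} [Fintype Ω] [MulAction (Matrix.SpecialLinearGroup (Fin 3) F) Ω]
    [IsPretransitive (Matrix.SpecialLinearGroup (Fin 3) F) Ω] (h2 : (2 : F) = 0)
    (hcard : Fintype.card Ω = Fintype.card F ^ 2) {r : ℕ}
    (hr : Nat.card (Matrix.SpecialLinearGroup (Fin 3) F) = Fintype.card F ^ 2 * (2 * r)) : False := by
  haveI : Nonempty Ω := Fintype.card_pos_iff.1 (by rw [hcard]; exact pow_pos Fintype.card_pos 2)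
  haveI : Fact (Nat.Prime 2) := ⟨Nat.prime_two⟩
  set ω := Classical.arbitrary Ω
  set S := stabilizer (Matrix.SpecialLinearGroup (Fin 3) F) ω
  have hS : Nat.card S = 2 * r := by
    have h := S.card_mul_index
    rw [MulAction.index_stabilizer_of_transitive, Nat.card_eq_fintype_card (α := Ω), hcard, hr,
      mul_comm] at h
    exact Nat.eq_of_mul_eq_mul_left (pow_pos Fintype.card_pos 2) h
  obtain ⟨s, hs⟩ := exists_prime_orderOf_dvd_card' (G := S) 2 (by rw [hS]; exact dvd_mul_right _ _)
  have hs1 : (s : Matrix.SpecialLinearGroup (Fin 3) F) ≠ 1 := by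
    intro h
    rw [Subtype.ext (h.trans S.coe_one.symm), orderOf_one] at hs
    omega
  have hs2 : (s : Matrix.SpecialLinearGroup (Fin 3) F) * s = 1 := by
    rw [← Subgroup.coe_mul, ← pow_two, ← hs, pow_orderOf_eq_one, S.coe_one]
  obtain ⟨a, φ, ha, hφ, h, he⟩ := involution_slTv h2 hs2 hs1
  exact fixed_point_free (m := 2) le_rfl hcard ha hφ h ω (he ▸ s.2)

omit [Fintype F] [DecidableEq F] in
theorem tvMat_ext0_add {m : ℕ} (a φ : Fin m → F) (γ : F) :
    tvMat (ext0 a) (ext0 φ + γ • eLast m) = blk (1 + vecMulVec a φ) (γ • a) 1 := by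
  ext i j
  induction i using Fin.lastCases <;> induction j using Fin.lastCases <;>
    simp [blk_cc, blk_cl, blk_lc, blk_ll, tvMat, ext0, eLast, vecMulVec_apply, Matrix.one_apply,
      (Fin.castSucc_lt_last _).ne', (Fin.castSucc_lt_last _).ne, mul_comm]

/-- No action of `SL 4` over three elements on `27` points. -/
theorem no_action_four {Ω : Type v} [Fintype Ω] [MulAction (Matrix.SpecialLinearGroup (Fin (3 + 1)) F) Ω]
    [IsPretransitive (Matrix.SpecialLinearGroup (Fin (3 + 1)) F) Ω] (h3 : (3 : F) = 0)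
    (hcard : Fintype.card Ω = Fintype.card F ^ 3) : False := by
  haveI : Nonempty Ω := Fintype.card_pos_iff.1 (by rw [hcard]; exact pow_pos Fintype.card_pos 3)
  set ω := Classical.arbitrary Ω
  set L := levelSL F 3 (by omega) with hL
  have hxneg : ∀ v, (L.x v)⁻¹ = L.x (-v) := fun v => by
    apply inv_eq_of_mul_eq_one_right
    rw [← L.x_add, add_neg_cancel, x_zero L.x_add]
  have hfix0 : ∀ v, L.x v • ω = ω → v = 0 := by
    intro v hv
    by_contra hne
    have h1 : slTv (ext0 v) (eLast (F := F) 3) = L.x v := slTv_eq_x _ v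
    refine fixed_point_free (m := 3) (by omega) hcard (a := ext0 v) (φ := eLast 3) ?_ ?_
      (eLast_dot_ext0 v) ω (by rw [h1]; exact hv)
    · intro h; exact hne (funext fun k => by simpa [ext0] using congrFun h k.castSucc)
    · simp [eLast]
  have hbij : Function.Bijective (fun v : Fin 3 → F => L.x v • ω) := by
    rw [Fintype.bijective_iff_injective_and_card]
    refine ⟨fun v w h => ?_, by rw [card_vec, hcard]⟩
    have : L.x (-w + v) • ω = ω := by
      rw [L.x_add, mul_smul, ← hxneg, inv_smul_eq_iff]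
      exact h
    simpa [neg_add_eq_zero, eq_comm] using hfix0 _ this
  have hlift : ∀ g : Matrix.SpecialLinearGroup (Fin (3 + 1)) F,
      ∃ v, L.x v * g ∈ stabilizer (Matrix.SpecialLinearGroup (Fin (3 + 1)) F) ω := by
    intro g
    obtain ⟨v, hv⟩ := hbij.2 (g • ω)
    exact ⟨-v, by rw [mem_stabilizer_iff, mul_smul, ← hxneg, inv_smul_eq_iff]; exact hv.symm⟩
  set A : Matrix (Fin 3) (Fin 3) F := !![1, 1, 0; 0, 1, 0; 0, 0, 1] with hA
  set B : Matrix (Fin 3) (Fin 3) F := !![1, 0, 0; 0, 1, 1; 0, 0, 1] with hB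
  have hdA : A.det * 1 = 1 := by simp [hA, Matrix.det_fin_three]
  have hdB : B.det * 1 = 1 := by simp [hB, Matrix.det_fin_three]
  obtain ⟨α, hα⟩ := hlift (slBlk A 0 1 hdA)
  obtain ⟨β, hβ⟩ := hlift (slBlk B 0 1 hdB)
  have hval : ∀ (M : Matrix (Fin 3) (Fin 3) F) (v : Fin 3 → F) (h : M.det * 1 = 1),
      ((L.x v * slBlk M 0 1 h : Matrix.SpecialLinearGroup (Fin (3 + 1)) F) :
        Matrix (Fin (3 + 1)) (Fin (3 + 1)) F) = blk M v 1 := fun M v h => by
    show blk 1 v 1 * blk M 0 1 = _
    simp [blk_mul]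
  have ea := hval A α hdA
  have eb := hval B β hdB
  generalize L.x α * slBlk A 0 1 hdA = a at hα ea
  generalize L.x β * slBlk B 0 1 hdB = b at hβ eb
  have hpow : ∀ (C : Matrix (Fin 3) (Fin 3) F) (δ : Fin 3 → F) (g : Matrix.SpecialLinearGroup (Fin (3 + 1)) F),
      g ∈ stabilizer (Matrix.SpecialLinearGroup (Fin (3 + 1)) F) ω →
      (g : Matrix (Fin (3 + 1)) (Fin (3 + 1)) F) = blk C δ 1 → C * C * C = 1 →
      C *ᵥ (C *ᵥ δ) + C *ᵥ δ + δ = 0 := by
    intro C δ g hg hgv hC
    refine hfix0 _ ?_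
    have hmem := mul_mem (mul_mem hg hg) hg
    rw [show g * g * g = L.x (C *ᵥ (C *ᵥ δ) + C *ᵥ δ + δ) from Subtype.ext ?_] at hmem
    · exact hmem
    show _ = blk 1 _ 1
    rw [Matrix.SpecialLinearGroup.coe_mul, Matrix.SpecialLinearGroup.coe_mul, hgv, blk_mul, blk_mul,
      hC, ← mulVec_mulVec]
    simp [add_assoc]
  have hab := hpow (A * B) (A *ᵥ β + α) (a * b) (mul_mem hα hβ)
    (by rw [Matrix.SpecialLinearGroup.coe_mul, ea, eb, blk_mul]; simp) (by
      rw [hA, hB]; ext i j; fin_cases i <;> fin_cases j <;> simp [Matrix.mul_apply, Fin.sum_univ_three] <;>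
        first | linear_combination h3 | linear_combination (2 : F) * h3 | linear_combination (4 : F) * h3)
  have haab := hpow (A * A * B) (A *ᵥ (A *ᵥ β + α) + α) (a * (a * b)) (mul_mem hα (mul_mem hα hβ))
    (by rw [Matrix.SpecialLinearGroup.coe_mul, Matrix.SpecialLinearGroup.coe_mul, ea, eb, blk_mul,
        blk_mul]; simp [mul_assoc]) (by
      rw [hA, hB]; ext i j; fin_cases i <;> fin_cases j <;> simp [Matrix.mul_apply, Fin.sum_univ_three] <;>
        first | linear_combination h3 | linear_combination (2 : F) * h3 | linear_combination (4 : F) * h3)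
  have mv : ∀ (M : Matrix (Fin 3) (Fin 3) F) (v : Fin 3 → F) (i : Fin 3),
      (M *ᵥ v) i = M i 0 * v 0 + M i 1 * v 1 + M i 2 * v 2 := fun M v i => by
    simp [Matrix.mulVec, dotProduct, Fin.sum_univ_three]
  have hAB : A * B = !![1, 1, 1; 0, 1, 1; 0, 0, 1] := by
    rw [hA, hB]; ext i j; fin_cases i <;> fin_cases j <;> simp [Matrix.mul_apply, Fin.sum_univ_three]
  have hAAB : A * A * B = !![1, 2, 2; 0, 1, 1; 0, 0, 1] := by
    rw [hA, hB]; ext i j; fin_cases i <;> fin_cases j <;>
      simp [Matrix.mul_apply, Fin.sum_univ_three] <;> ring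
  rw [hAB] at hab
  rw [hAAB] at haab
  have e1 : α 2 + β 2 = 0 := by
    have := congrFun hab 0
    simp only [Pi.add_apply, Pi.zero_apply, mv] at this
    simp [hA] at this
    linear_combination this - (β 0 + 2 * β 1 + α 0 + α 1 + α 2 + β 2) * h3
  have e2 : 2 * α 2 + β 2 = 0 := by
    have := congrFun haab 0
    simp only [Pi.add_apply, Pi.zero_apply, mv] at this
    simp [hA] at this
    linear_combination -this + ((β 0 + 2 * β 1 + 2 * α 0 + α 1) + 2 * (β 1 + 2 * α 1) + 3 * (β 2 + 2 * α 2)) * h3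
  have hα2 : α 2 = 0 := by linear_combination e2 - e1
  have hβ2 : β 2 = 0 := by linear_combination e1 - hα2
  set γ : F := (A *ᵥ β + α) 0 - (B *ᵥ α + β) 0
  set φ : Fin (3 + 1) → F := ext0 (Pi.single 2 1) + γ • eLast 3 with hφ
  set e0 : Fin (3 + 1) → F := ext0 (Pi.single 0 1) with he0
  have hd0 : φ ⬝ᵥ e0 = 0 := by
    rw [hφ, he0, add_dotProduct, ext0_dot, smul_dotProduct, eLast_dot_ext0]
    simp
  have hC : tvMat e0 φ = blk !![1, 0, 1; 0, 1, 0; 0, 0, 1] ![γ, 0, 0] 1 := by
    rw [hφ, he0, tvMat_ext0_add]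
    congr 1
    · ext i j; fin_cases i <;> fin_cases j <;> simp [vecMulVec_apply, Matrix.one_apply]
    · funext i; fin_cases i <;> simp
  have hz : a * b = slTv e0 φ * (b * a) := by
    apply Subtype.ext
    show (_ : Matrix (Fin (3 + 1)) (Fin (3 + 1)) F) = _
    rw [Matrix.SpecialLinearGroup.coe_mul, Matrix.SpecialLinearGroup.coe_mul,
      Matrix.SpecialLinearGroup.coe_mul, ea, eb, blk_mul, blk_mul]
    show _ = ((tv e0 φ : GL (Fin (3 + 1)) F) : Matrix (Fin (3 + 1)) (Fin (3 + 1)) F) * _
    rw [tv_val hd0, hC, blk_mul]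
    congr 1
    · rw [hA, hB]; ext i j; fin_cases i <;> fin_cases j <;>
        simp [Matrix.mul_apply, Fin.sum_univ_three]
    · funext i
      simp only [Pi.add_apply, Pi.smul_apply, mv, γ]
      fin_cases i <;> simp [hA, hB, hα2, hβ2] <;> ring
    · simp
  refine fixed_point_free (m := 3) (by omega) hcard (a := e0) (φ := φ) ?_ ?_ ?_ ω ?_
  · intro h; simpa [he0, ext0] using congrFun h (Fin.castSucc 0)
  · intro h
    have := congrFun h (Fin.castSucc 2)
    simp only [hφ, Pi.add_apply, Pi.smul_apply, ext0, eLast, Fin.snoc_castSucc, Pi.single_apply,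
      (Fin.castSucc_lt_last _).ne] at this
    simp at this
  · exact hd0
  · have : slTv e0 φ = a * b * (b * a)⁻¹ := by rw [hz]; group
    show slTv e0 φ • ω = ω
    rw [this]
    exact mul_mem (mul_mem hα hβ) (inv_mem (mul_mem hβ hα))

/-- The minimal index of a proper subgroup of `SL n`. -/
theorem index_bound (n : ℕ) (hn : 3 ≤ n) (hex : ¬ (n = 4 ∧ Fintype.card F = 2))
    {H : Subgroup (Matrix.SpecialLinearGroup (Fin n) F)} (hH : H ≠ ⊤) :
    target (Fintype.card F) n + 1 ≤ H.index := by
  classical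
  obtain ⟨m, rfl⟩ : ∃ m, n = m + 1 := ⟨n - 1, by omega⟩
  have hm : 2 ≤ m := by omega
  haveI : Fintype (Matrix.SpecialLinearGroup (Fin (m + 1)) F ⧸ H) := Fintype.ofFinite _
  have hidx : H.index = Fintype.card (Matrix.SpecialLinearGroup (Fin (m + 1)) F ⧸ H) :=
    Nat.card_eq_fintype_card
  have h2 : 2 ≤ H.index := by
    have h1 : H.index ≠ 1 := fun h => hH (Subgroup.index_eq_one.1 h)
    have h0 : H.index ≠ 0 := Subgroup.index_ne_zero_of_finite
    omega
  by_contra hlt
  push Not at hlt
  by_cases hgen : (m + 1, Fintype.card F) ≠ (3, 2) ∧ (m + 1, Fintype.card F) ≠ (3, 4) ∧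
      (m + 1, Fintype.card F) ≠ (4, 2) ∧ (m + 1, Fintype.card F) ≠ (4, 3)
  · have hb := bound (F := F) (m + 1) (by omega) hgen _ _ (sumZero_nontrivial
      (G := Matrix.SpecialLinearGroup (Fin (m + 1)) F)
      (Ω := Matrix.SpecialLinearGroup (Fin (m + 1)) F ⧸ H) (hidx ▸ h2))
    haveI : Nonempty (Matrix.SpecialLinearGroup (Fin (m + 1)) F ⧸ H) := ⟨QuotientGroup.mk 1⟩
    rw [finrank_sumZero, ← hidx] at hb
    omega
  have hcases : (m = 2 ∧ Fintype.card F = 2) ∨ (m = 2 ∧ Fintype.card F = 4) ∨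
      (m = 3 ∧ Fintype.card F = 3) := by
    simp only [ne_eq, Prod.mk.injEq] at hgen
    omega
  have hT := target_mul (Fintype.card F) (m + 1) (by omega) Fintype.card_pos
  have hS := small_action (F := F) hm (Ω := Matrix.SpecialLinearGroup (Fin (m + 1)) F ⧸ H) (hidx ▸ h2)
  rw [← hidx] at hS
  have hord := card_sl (F := F) (n := m + 1) (by omega)
  rcases hcases with ⟨rfl, hq⟩ | ⟨rfl, hq⟩ | ⟨rfl, hq⟩
  · rw [hq] at hord hS hT hlt
    have hc : Nat.card (Matrix.SpecialLinearGroup (Fin (2 + 1)) F) = 168 := by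
      norm_num [Fin.prod_univ_succ] at hord; rw [Nat.card_eq_fintype_card]; omega
    have ht : target 2 (2 + 1) = 6 := by simp [target, Finset.sum_Ico_succ_top]
    obtain ⟨hlo, hd1, hd2⟩ := hS (by norm_num; omega)
    rw [hc] at hd1 hd2
    norm_num at hlo
    have : H.index ≤ 6 := by omega
    interval_cases h : H.index <;> (try (norm_num at hd1)) <;> (try (norm_num at hd2))
    refine no_action_three (F := F) (Ω := Matrix.SpecialLinearGroup (Fin (2 + 1)) F ⧸ H) ?_
      (by rw [← hidx, hq]; norm_num) (r := 21) (by rw [hc, hq]; norm_num)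
    obtain ⟨c, hc'⟩ := CharP.exists F
    obtain ⟨k, hp, hk⟩ := FiniteField.card F c
    rw [hq] at hk
    have : c = 2 := (Nat.prime_dvd_prime_iff_eq hp Nat.prime_two).1 (hk ▸ dvd_pow_self c k.ne_zero)
    subst this
    exact CharTwo.two_eq_zero
  · rw [hq] at hord hS hT hlt
    have hc : Nat.card (Matrix.SpecialLinearGroup (Fin (2 + 1)) F) = 60480 := by
      norm_num [Fin.prod_univ_succ] at hord; rw [Nat.card_eq_fintype_card]; omega
    have ht : target 4 (2 + 1) = 20 := by simp [target, Finset.sum_Ico_succ_top]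
    obtain ⟨hlo, hd1, hd2⟩ := hS (by norm_num; omega)
    rw [hc] at hd1 hd2
    norm_num at hlo
    have : H.index ≤ 20 := by omega
    interval_cases h : H.index <;> (try (norm_num at hd1)) <;> (try (norm_num at hd2))
    refine no_action_three (F := F) (Ω := Matrix.SpecialLinearGroup (Fin (2 + 1)) F ⧸ H) ?_
      (by rw [← hidx, hq]; norm_num) (r := 1890) (by rw [hc, hq]; norm_num)
    obtain ⟨c, hc'⟩ := CharP.exists F
    obtain ⟨k, hp, hk⟩ := FiniteField.card F c
    rw [hq] at hk
    have : c = 2 := (Nat.prime_dvd_prime_iff_eq hp Nat.prime_two).1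
      (hp.dvd_of_dvd_pow (n := 2) (by norm_num; exact hk ▸ dvd_pow_self c k.ne_zero))
    subst this
    exact CharTwo.two_eq_zero
  · rw [hq] at hord hS hT hlt
    have hc : Nat.card (Matrix.SpecialLinearGroup (Fin (3 + 1)) F) = 12130560 := by
      norm_num [Fin.prod_univ_succ] at hord; rw [Nat.card_eq_fintype_card]; omega
    have ht : target 3 (3 + 1) = 39 := by simp [target, Finset.sum_Ico_succ_top]
    obtain ⟨hlo, hd1, hd2⟩ := hS (by norm_num; omega)
    rw [hc] at hd1 hd2
    norm_num at hlo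
    have : H.index ≤ 39 := by omega
    interval_cases h : H.index <;> (try (norm_num at hd1)) <;> (try (norm_num at hd2))
    refine no_action_four (F := F) (Ω := Matrix.SpecialLinearGroup (Fin (3 + 1)) F ⧸ H) ?_
      (by rw [← hidx, hq]; norm_num)
    have h0 := FiniteField.cast_card_eq_zero F
    rw [hq] at h0
    exact_mod_cast h0

/-- The minimal index of a proper subgroup of `PSL n`, with the point stabiliser attaining it. -/
theorem psl_min_index {q : ℕ} (hF : Fintype.card F = q) (n : ℕ) (hn : 3 ≤ n)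
    (hex : ¬ (n = 4 ∧ q = 2)) :
    (∀ H : Subgroup (Matrix.ProjectiveSpecialLinearGroup (Fin n) F), H ≠ ⊤ →
        (q ^ n - 1) / (q - 1) ≤ H.index) ∧
      (∃ H : Subgroup (Matrix.ProjectiveSpecialLinearGroup (Fin n) F),
        H.index = (q ^ n - 1) / (q - 1)) := by
  subst hF
  have hq : 2 ≤ Fintype.card F := Fintype.one_lt_card
  refine ⟨fun H hH => ?_, ?_⟩
  · rw [target_add_one _ n (by omega) hq,
      ← Subgroup.index_comap_of_surjective H (QuotientGroup.mk'_surjective _)]
    refine index_bound n hn hex fun h => hH ?_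
    rw [← Subgroup.index_eq_one] at h ⊢
    rwa [Subgroup.index_comap_of_surjective H (QuotientGroup.mk'_surjective _)] at h
  · let P := Projectivization F (Fin n → F)
    haveI : Nontrivial (Fin n) := Fin.nontrivial_iff_two_le.2 (by omega)
    haveI : Nonempty P := ⟨Projectivization.mk F (Pi.single ⟨0, by omega⟩ 1) (by simp)⟩
    refine ⟨stabilizer (Matrix.ProjectiveSpecialLinearGroup (Fin n) F) (Classical.arbitrary P), ?_⟩
    rw [MulAction.index_stabilizer_of_transitive, Projectivization.card'', Nat.card_fun,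
      Nat.card_eq_fintype_card, Nat.card_eq_fintype_card, Fintype.card_fin]

end Cfsg.Agent.Lib.MinDegSL
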