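import Cfsg.Agent.Lib.MinDegSL.Block
import Cfsg.Agent.Lib.Classical.Simple
import Cfsg.Agent.Lib.Char.Integral
import Cfsg.Agent.Lib.Char.Basic

/-! One step of the descent, divisibility of the degree, and reduction to irreducible constituents. -/

set_option autoImplicit false

namespace Cfsg.Agent.Lib.MinDegSL

open Matrix Module
open scoped commutatorElement
open Cfsg.Agent.Lib.Forms

universe u v w

variable {F : Type u} [Field F] [Fintype F] [DecidableEq F]

namespace Level

variable {Γ : Type w} [Group Γ] {m : ℕ} (L : Level F Γ m)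
variable {V : Type v} [AddCommGroup V] [Module ℂ V] [FiniteDimensional ℂ V]
variable {ρ : Representation ℂ Γ V}

/-- A nontrivial radical with small degree: all the numerical consequences. -/
theorem step (hm : 2 ≤ m) {v : Fin m → F} (hv : ρ (L.x v) ≠ 1)
    (hk : finrank ℂ V < 2 * (Fintype.card F ^ m - 1)) :
    L.b ρ hm = 1 ∧ finrank ℂ V = finrank ℂ (LinearMap.range (proj ρ L.x 0)) + (Fintype.card F ^ m - 1) := by
  have h := L.finrank_eq (ρ := ρ) hm
  have hb := L.b_pos hm hv
  have hb1 : L.b ρ hm = 1 := by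
    by_contra hne
    have : 2 * (Fintype.card F ^ m - 1) ≤ (Fintype.card F ^ m - 1) * L.b ρ hm := by
      rw [mul_comm]; exact Nat.mul_le_mul_left _ (by omega)
    omega
  refine ⟨hb1, ?_⟩
  rw [h, hb1, mul_one]
  rfl

/-- The character of the fixed space at an elementary transvection. -/
theorem char_fix_t (hm : 2 ≤ m) (htor : L.HasTorus) (hb1 : L.b ρ hm = 1) {i j : Fin m}
    (hi : i.1 = 0) (hj : j.1 = 1) {b : F} (hb : b ≠ 0) :
    (L.fixRep ρ).character (L.t i j b) =
      (finrank ℂ (LinearMap.range (proj ρ L.x 0)) : ℂ) - (Fintype.card F : ℂ) ^ (m - 1) := by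
  rw [L.char_fixRep, L.val_zero_t hm htor hb1 hi hj hb]
  rfl

/-- The fixed space of the radical has dimension at least `q - 1`, `m = 2`. -/
theorem le_fix_two (L : Level F Γ 2) {ρ : Representation ℂ Γ V} (htor : L.HasTorus)
    (hb1 : L.b ρ le_rfl = 1) :
    Fintype.card F ≤ finrank ℂ (LinearMap.range (proj ρ L.x 0)) + 1 := by
  let y : (Fin 1 → F) → L.H := fun w => L.t 0 1 (w 0)
  have hy : ∀ a b, y (a + b) = y a * y b := by
    intro a b
    apply Subtype.ext
    refine Prod.ext ?_ (by simp [y, t])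
    show tv _ _ = tv _ _ * tv _ _
    rw [tv_add_center (by simp) (by simp), ← Pi.single_add]
    rfl
  set W := LinearMap.range (proj ρ L.x 0)
  set c := finrank ℂ W with hc
  set σ := L.fixRep ρ
  have hsum : ∑ w : Fin 1 → F, σ.character (y w) =
      (Fintype.card F : ℂ) * (mult σ y 0 : ℂ) := by
    simp only [char_x hy]
    rw [Finset.sum_comm]
    simp only [← Finset.sum_mul, sum_psi, ite_mul, zero_mul, Finset.sum_ite_eq', Finset.mem_univ,
      if_true, pow_one]
  rw [← Finset.add_sum_erase _ _ (Finset.mem_univ (0 : Fin 1 → F)),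
    Finset.sum_congr rfl (g := fun _ => (c : ℂ) - Fintype.card F) (fun w hw => ?_), Finset.sum_const,
    Finset.card_erase_of_mem (Finset.mem_univ _), x_zero hy, Representation.char_one, ← hc,
    Finset.card_univ, card_vec, pow_one, nsmul_eq_mul, Nat.cast_sub Fintype.card_pos] at hsum
  · have h2 : (Fintype.card F : ℂ) * ((c : ℂ) + 1) =
        (Fintype.card F : ℂ) * ((mult σ y 0 : ℂ) + Fintype.card F) := by
      push_cast at hsum
      linear_combination hsum
    have h3 := mul_left_cancel₀ (Nat.cast_ne_zero.2 Fintype.card_ne_zero) h2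
    have h4 : c + 1 = mult σ y 0 + Fintype.card F := by exact_mod_cast h3
    omega
  · have hw0 : w 0 ≠ 0 := fun h => Finset.ne_of_mem_erase hw (by
      ext k; rw [Subsingleton.elim k 0, h]; rfl)
    have := L.char_fix_t (ρ := ρ) le_rfl htor hb1 (i := 0) (j := 1) rfl rfl hw0
    simpa [y, σ] using this

end Level

/-- Exponent three in the units forces a field with `2` or `4` elements. -/
theorem exists_cube_ne_one (h2 : Fintype.card F ≠ 2) (h4 : Fintype.card F ≠ 4) :
    ∃ a : Fˣ, a ^ 3 ≠ 1 := by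
  obtain ⟨g, hg⟩ := IsCyclic.exists_ofOrder_eq_natCard (α := Fˣ)
  refine ⟨g, fun h => ?_⟩
  have hd := orderOf_dvd_of_pow_eq_one h
  rw [hg, Nat.card_eq_fintype_card, Fintype.card_units] at hd
  have := Fintype.one_lt_card (α := F)
  rcases (Nat.dvd_prime Nat.prime_three).1 hd with h1 | h1 <;> omega

theorem exists_sq_ne_one (h3 : 3 < Fintype.card F) : ∃ a : Fˣ, a ^ 2 ≠ 1 := by
  obtain ⟨g, hg⟩ := IsCyclic.exists_ofOrder_eq_natCard (α := Fˣ)
  refine ⟨g, fun h => ?_⟩
  have hd := Nat.le_of_dvd (by omega) (orderOf_dvd_of_pow_eq_one h)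
  rw [hg, Nat.card_eq_fintype_card, Fintype.card_units] at hd
  omega

theorem exists_ne_one (h3 : 3 ≤ Fintype.card F) : ∃ a : Fˣ, a ≠ 1 := by
  have : Nontrivial Fˣ := Fintype.one_lt_card_iff_nontrivial.1 (by rw [Fintype.card_units]; omega)
  exact exists_ne 1

/-- An invertible diagonal matrix. -/
def glDiag {m : ℕ} (d : Fin m → Fˣ) : GL (Fin m) F :=
  ⟨diagonal fun i => (d i : F), diagonal fun i => ((d i)⁻¹ : Fˣ),
    by rw [diagonal_mul_diagonal, ← diagonal_one]; congr; funext i; simp,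
    by rw [diagonal_mul_diagonal, ← diagonal_one]; congr; funext i; simp⟩

theorem torus_aux {Γ : Type w} [Group Γ] {m : ℕ} (L : Level F Γ m) (d : Fin m → Fˣ) (i j last : Fin m)
    (hij : i ≠ j) (hr : d i ≠ d j) (hmem : ((glDiag d, d last) : GL (Fin m) F × Fˣ) ∈ L.H) :
    ∃ h : L.H, ∃ r : F, r ≠ 1 ∧
    (∀ b : F, h * ⟨(tv (Pi.single i b) (Pi.single j 1), 1), L.tv_mem _ _⟩ =
      ⟨(tv (Pi.single i (r * b)) (Pi.single j 1), 1), L.tv_mem _ _⟩ * h) ∧
    ∀ c : F, ((h.1.2⁻¹ : Fˣ) : F) • ((Pi.single last c) ᵥ* (h.1.1 : Matrix (Fin m) (Fin m) F)) =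
      Pi.single last c := by
  refine ⟨⟨_, hmem⟩, (d i : F) / d j, fun h => hr (Units.ext ?_), fun b => ?_, fun c => ?_⟩
  · rwa [div_eq_one_iff_eq (Units.ne_zero _)] at h
  · apply Subtype.ext
    refine Prod.ext (Units.ext ?_) (by simp)
    show diagonal (fun k => (d k : F)) * ((tv _ _ : GL (Fin m) F) : Matrix (Fin m) (Fin m) F) =
      ((tv _ _ : GL (Fin m) F) : Matrix (Fin m) (Fin m) F) * diagonal (fun k => (d k : F))
    rw [tv_val (by simp [hij.symm]), tv_val (by simp [hij.symm])]
    ext a c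
    simp only [tvMat, mul_add, add_mul, mul_one, one_mul, Matrix.add_apply, diagonal_mul, mul_diagonal,
      vecMulVec_apply, Pi.single_apply]
    by_cases ha : a = i <;> by_cases hc : c = j <;> simp [ha, hc, Matrix.one_apply, hij, hij.symm]
    all_goals field_simp
  · show (((d last)⁻¹ : Fˣ) : F) • (Pi.single last c ᵥ* diagonal (fun k => (d k : F))) = _
    ext a
    by_cases ha : a = last
    · subst ha; simp [vecMul_diagonal]; field_simp
    · simp [vecMul_diagonal, ha]

theorem hasTorus_GL {m : ℕ} (hm : 2 ≤ m) (h3 : m ≤ 3 → 3 ≤ Fintype.card F) :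
    (levelGL F m hm).HasTorus := by
  intro i j last hi hj _ hm3
  obtain ⟨a, ha⟩ := exists_ne_one (h3 hm3)
  have hij : i ≠ j := fun h => by rw [h] at hi; omega
  exact torus_aux _ (Function.update 1 i a) i j last hij (by simp [hij.symm, ha]) trivial

theorem hasTorus_SL {m : ℕ} (hm : 2 ≤ m) (h2 : m = 2 → Fintype.card F ≠ 2 ∧ Fintype.card F ≠ 4)
    (h3 : m = 3 → 3 < Fintype.card F) : (levelSL F m hm).HasTorus := by
  intro i j last hi hj hl hm3
  have hij : i ≠ j := fun h => by rw [h] at hi; omega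
  rcases (show m = 2 ∨ m = 3 by omega) with rfl | rfl
  · obtain ⟨a, ha⟩ := exists_cube_ne_one (h2 rfl).1 (h2 rfl).2
    obtain rfl : i = 0 := Fin.ext hi
    obtain rfl : j = 1 := Fin.ext hj
    obtain rfl : last = 1 := Fin.ext (by simp; omega)
    refine torus_aux _ ![a⁻¹ * a⁻¹, a] 0 1 1 hij (fun h => ha ?_) ?_
    · simp only [Matrix.cons_val_zero, Matrix.cons_val_one] at h
      calc a ^ 3 = a * a * a := by rw [pow_succ, pow_two]
        _ = a * a * (a⁻¹ * a⁻¹) := by rw [h]
        _ = 1 := by group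
    · refine mem_detOne.2 ?_
      simp [glDiag, Fin.prod_univ_two]
  · obtain ⟨a, ha⟩ := exists_sq_ne_one (h3 rfl)
    obtain rfl : i = 0 := Fin.ext hi
    obtain rfl : j = 1 := Fin.ext hj
    obtain rfl : last = 2 := Fin.ext (by simp; omega)
    refine torus_aux _ ![a, a⁻¹, 1] 0 1 2 hij (fun h => ha ?_) ?_
    · simp only [Matrix.cons_val_zero, Matrix.cons_val_one] at h
      calc a ^ 2 = a * a := sq a
        _ = a⁻¹ * a := by rw [← h]
        _ = 1 := inv_mul_cancel a
    · refine mem_detOne.2 ?_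
      simp [glDiag, Fin.prod_univ_three]

/-! ### Conjugacy and nontriviality in `SL (m+1)` -/

/-- A transvection as an element of the special linear group. -/
noncomputable def slTv {n : ℕ} (a φ : Fin n → F) : Matrix.SpecialLinearGroup (Fin n) F :=
  ⟨(tv a φ : GL (Fin n) F), tv_det a φ⟩

theorem isConj_x {m : ℕ} (hm : 2 ≤ m) {v w : Fin m → F} (hv : v ≠ 0) (hw : w ≠ 0) :
    IsConj ((levelSL F m hm).x v) ((levelSL F m hm).x w) := by
  obtain ⟨i, j, hij⟩ : ∃ i j : Fin m, i ≠ j := ⟨⟨0, by omega⟩, ⟨1, by omega⟩, by simp⟩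
  have key := fun u hu => (levelSL F m hm).conj_tv (Pi.single i 1) (Pi.single j 1) (by simp) (by simp)
    (by simp [hij.symm]) u hu
  exact (key v hv).trans (key w hw).symm

theorem slTv_eq_x {m : ℕ} (hm : 2 ≤ m) (v : Fin m → F) :
    slTv (ext0 v) (eLast (F := F) m) = (levelSL F m hm).x v :=
  Subtype.ext (by
    show ((tv _ _ : GL (Fin (m + 1)) F) : Matrix (Fin (m + 1)) (Fin (m + 1)) F) = _
    rw [← glBlk_x]; simp [glBlk_val, levelSL, slBlk])

variable {m : ℕ} {V : Type v} [AddCommGroup V] [Module ℂ V]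
variable {ρ : Representation ℂ (Matrix.SpecialLinearGroup (Fin (m + 1)) F) V}

theorem x_nontrivial (hm : 2 ≤ m) (hρ : ∃ g, ρ g ≠ 1) {v : Fin m → F} (hv : v ≠ 0) :
    ρ ((levelSL F m hm).x v) ≠ 1 := by
  intro h1
  obtain ⟨g, hg⟩ := hρ
  apply hg
  have hx : ∀ w, ρ ((levelSL F m hm).x w) = 1 := by
    intro w
    by_cases hw : w = 0
    · subst hw; rw [x_zero (levelSL F m hm).x_add, map_one]
    · obtain ⟨c, hc⟩ := isConj_iff.1 (isConj_x hm hv hw)
      rw [← hc, map_mul, map_mul, h1, mul_one, ← map_mul, mul_inv_cancel, map_one]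
  let K := MonoidHom.ker ρ
  have hcol : ∀ (k : Fin m) (c : F),
      SpecialLinearGroup.transvection (Fin.castSucc_lt_last k).ne c ∈ K := by
    intro k c
    rw [MonoidHom.mem_ker, show SpecialLinearGroup.transvection (Fin.castSucc_lt_last k).ne c =
      (levelSL F m hm).x (Pi.single k c) from ?_]
    · exact hx _
    apply Subtype.ext
    show _ = blk 1 (Pi.single k c) 1
    rw [SpecialLinearGroup.transvection_coe]
    ext a b
    induction a using Fin.lastCases <;> induction b using Fin.lastCases <;>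
      simp [blk_cc, blk_cl, blk_lc, blk_ll, Matrix.single_apply, Matrix.one_apply, Pi.single_apply,
        (Fin.castSucc_lt_last _).ne', eq_comm]
  have hcomm : ∀ {a b : Matrix.SpecialLinearGroup (Fin (m + 1)) F}, a ∈ K ∨ b ∈ K → ⁅a, b⁆ ∈ K := by
    intro a b h
    rw [MonoidHom.mem_ker, commutatorElement_def, map_mul, map_mul, map_mul]
    rcases h with h | h
    · rw [MonoidHom.mem_ker] at h
      rw [h, show ρ a⁻¹ = 1 by
        have := K.inv_mem (MonoidHom.mem_ker.2 h); exact MonoidHom.mem_ker.1 this, one_mul,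
        mul_one, ← map_mul, mul_inv_cancel, map_one]
    · rw [MonoidHom.mem_ker] at h
      rw [h, show ρ b⁻¹ = 1 by
        have := K.inv_mem (MonoidHom.mem_ker.2 h); exact MonoidHom.mem_ker.1 this, mul_one,
        mul_one, ← map_mul, mul_inv_cancel, map_one]
  have hblock : ∀ (i j : Fin m) (hij : i ≠ j) (c : F),
      SpecialLinearGroup.transvection ((Fin.castSucc_injective m).ne hij) c ∈ K := by
    intro i j hij c
    rw [← mul_one c, ← Classical.transvection_commutator (Fin.castSucc_lt_last i).ne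
      (Fin.castSucc_lt_last j).ne' ((Fin.castSucc_injective m).ne hij) c 1]
    exact hcomm (.inl (hcol i c))
  have hrow : ∀ (j : Fin m) (c : F),
      SpecialLinearGroup.transvection (Fin.castSucc_lt_last j).ne' c ∈ K := by
    intro j c
    obtain ⟨k, hk⟩ : ∃ k : Fin m, k ≠ j := by
      haveI : Nontrivial (Fin m) := Fin.nontrivial_iff_two_le.2 hm
      exact exists_ne j
    rw [← mul_one c, ← Classical.transvection_commutator (Fin.castSucc_lt_last k).ne'
      ((Fin.castSucc_injective m).ne hk) (Fin.castSucc_lt_last j).ne' c 1]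
    exact hcomm (.inr (hblock k j hk 1))
  refine MonoidHom.mem_ker.1 (Classical.SL_transvection_induction (· ∈ K) (one_mem _) ?_
    (fun _ _ => mul_mem) g)
  intro i j hij c
  induction i using Fin.lastCases with
  | last =>
    induction j using Fin.lastCases with
    | last => exact absurd rfl hij
    | cast j => exact hrow j c
  | cast i =>
    induction j using Fin.lastCases with
    | last => exact hcol i c
    | cast j => exact hblock i j (fun h => hij (congrArg _ h)) c

theorem exists_conj_tv (hm : 2 ≤ m) {a φ : Fin (m + 1) → F} (ha : a ≠ 0) (hφ : φ ≠ 0)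
    (h : φ ⬝ᵥ a = 0) {v : Fin m → F} (hv : v ≠ 0) :
    IsConj ((levelSL F m hm).x v) (slTv a φ) := by
  -- move the centre to the first coordinate vector
  set e : Fin m → F := Pi.single ⟨0, by omega⟩ 1 with he
  have he0 : e ≠ 0 := by simp [he]
  obtain ⟨A, hA⟩ := CrossChar.sl_transitive (show 2 ≤ m + 1 by omega) a (ext0 e) ha (by
    intro h0; apply he0; funext k; simpa [ext0] using congrFun h0 k.castSucc)
  set G : GL (Fin (m + 1)) F := Matrix.SpecialLinearGroup.toGL A with hG
  have hGa : (G : Matrix (Fin (m + 1)) (Fin (m + 1)) F) *ᵥ a = ext0 e := hA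
  set φ' := φ ᵥ* ((G⁻¹ : GL (Fin (m + 1)) F) : Matrix (Fin (m + 1)) (Fin (m + 1)) F) with hφ'
  have h' : φ' ⬝ᵥ ext0 e = 0 := by rw [← hGa, hφ', vecMul_inv_dot, h]
  have hφ0 : φ' ≠ 0 := by
    intro h0
    apply hφ
    have := congrArg (fun z => z ᵥ* (G : Matrix (Fin (m + 1)) (Fin (m + 1)) F)) h0
    simpa [hφ', vecMul_vecMul] using this
  have step1 : IsConj (slTv a φ) (slTv (ext0 e) φ') := by
    refine isConj_iff.2 ⟨A, ?_⟩
    apply Matrix.SpecialLinearGroup.toGL_injective
    rw [map_mul, map_mul, map_inv]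
    have e1 : ∀ b ψ : Fin (m + 1) → F, Matrix.SpecialLinearGroup.toGL (slTv b ψ) = tv b ψ :=
      fun b ψ => Units.ext rfl
    rw [e1, e1, ← hG, tv_conj G h, hGa]
  refine IsConj.trans ?_ step1.symm
  set ψ : Fin m → F := fun k => φ' k.castSucc with hψ
  set z := φ' (Fin.last m) with hz
  have hdec : φ' = ext0 ψ + z • eLast m := by
    funext k
    induction k using Fin.lastCases <;> simp [hψ, hz, ext0, eLast]
  have hψe : ψ ⬝ᵥ e = 0 := by
    rw [← ext0_dot]
    rw [hdec, add_dotProduct, smul_dotProduct, eLast_dot_ext0, smul_zero, add_zero] at h'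
    exact h'
  by_cases hz0 : z = 0
  · rw [hdec, hz0, zero_smul, add_zero] at hφ0 ⊢
    have hψ0 : ψ ≠ 0 := fun h0 => hφ0 (by
      rw [h0]; funext k; induction k using Fin.lastCases <;> simp [ext0])
    have e3 : (levelSL F m hm).lev ⟨(tv e ψ, 1), (levelSL F m hm).tv_mem e ψ⟩ =
        slTv (ext0 e) (ext0 ψ) := Subtype.ext (by
      show blk _ 0 1 = ((tv _ _ : GL (Fin (m + 1)) F) : Matrix (Fin (m + 1)) (Fin (m + 1)) F)
      rw [← glBlk_tv hψe]
      rfl)
    rw [← e3]
    exact (levelSL F m hm).conj_tv e ψ he0 hψ0 hψe v hv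
  · -- remove the first `m` coordinates by a transvection
    refine (isConj_x hm hv (w := z • e) (smul_ne_zero hz0 he0)).trans ?_
    set a1 : Fin (m + 1) → F := z⁻¹ • eLast m with ha1
    have h1 : ext0 ψ ⬝ᵥ a1 = 0 := by rw [ha1, dotProduct_smul, ext0_dot_eLast, smul_zero]
    have h2 : φ' ⬝ᵥ a1 = 1 := by
      rw [hdec, ha1, dotProduct_smul, add_dotProduct, ext0_dot_eLast, zero_add, smul_dotProduct]
      simp [eLast, hz0]
    refine IsConj.symm (isConj_iff.2 ⟨slTv a1 (ext0 ψ), ?_⟩)
    apply Matrix.SpecialLinearGroup.toGL_injective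
    rw [map_mul, map_mul, map_inv, ← slTv_eq_x hm]
    have e1 : ∀ b χ : Fin (m + 1) → F, Matrix.SpecialLinearGroup.toGL (slTv b χ) = tv b χ :=
      fun b χ => Units.ext rfl
    rw [e1, e1, e1, tv_conj_tv h1 h', ext0_dot, hψe, zero_smul, add_zero, h2, one_smul, hdec,
      add_sub_cancel_left]
    have e2 : ext0 (z • e) = z • ext0 e := by
      funext k; induction k using Fin.lastCases <;> simp [ext0]
    rw [e2, tv_smul_center z (eLast_dot_ext0 e)]

end Cfsg.Agent.Lib.MinDegSL
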