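import Cfsg.Agent.Lib.MinDegSL.Step
import Mathlib.RepresentationTheory.Maschke

/-! Counting transvections, the divisibility of the degree, and iteration of the descent. -/

set_option autoImplicit false

namespace Cfsg.Agent.Lib.MinDegSL

open Matrix Module
open Cfsg.Agent.Lib.Forms

universe u v w

/-- An irreducible constituent carries any lower bound. -/
theorem le_finrank_of_irreducible {G : Type u} [Group G] [Finite G] {B : ℕ}
    (h : ∀ (U : Type v) [AddCommGroup U] [Module ℂ U] [FiniteDimensional ℂ U]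
      (σ : Representation ℂ G U), σ.IsIrreducible → (∃ g, σ g ≠ 1) → B ≤ finrank ℂ U) :
    ∀ (V : Type v) [AddCommGroup V] [Module ℂ V] [FiniteDimensional ℂ V]
      (ρ : Representation ℂ G V), (∃ g, ρ g ≠ 1) → B ≤ finrank ℂ V := by
  suffices ∀ (k : ℕ) (V : Type v) [AddCommGroup V] [Module ℂ V] [FiniteDimensional ℂ V]
      (ρ : Representation ℂ G V), finrank ℂ V = k → (∃ g, ρ g ≠ 1) → B ≤ k by
    intro V _ _ _ ρ hρ; exact this _ V ρ rfl hρ
  intro k
  induction k using Nat.strong_induction_on with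
  | _ k ih =>
    intro V _ _ _ ρ hk hρ
    by_cases hirr : ρ.IsIrreducible
    · exact hk ▸ h V ρ hirr hρ
    obtain ⟨g, hg⟩ := hρ
    haveI : Fintype G := Fintype.ofFinite G
    haveI : NeZero (Nat.card G : ℂ) := ⟨Nat.cast_ne_zero.2 Nat.card_pos.ne'⟩
    obtain ⟨U, hU0, hU1⟩ : ∃ U : Subrepresentation ρ, U ≠ ⊥ ∧ U ≠ ⊤ := by
      by_contra hc
      push Not at hc
      apply hirr
      have hne : (⊥ : Subrepresentation ρ) ≠ ⊤ := by
        intro e
        apply hg
        apply LinearMap.ext
        intro v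
        have hv : v ∈ (⊤ : Subrepresentation ρ).toSubmodule := trivial
        rw [← e] at hv
        have : v = 0 := (Submodule.mem_bot ℂ).1 hv
        simp [this]
      exact { exists_pair_ne := ⟨⊥, ⊤, hne⟩, eq_bot_or_eq_top := fun U => or_iff_not_imp_left.2 (hc U) }
    obtain ⟨U', hU'⟩ := exists_isCompl U
    have hc : IsCompl U.toSubmodule U'.toSubmodule :=
      ⟨disjoint_iff.2 (by
          exact congrArg Subrepresentation.toSubmodule hU'.1.eq_bot),
        codisjoint_iff.2 (by
          exact congrArg Subrepresentation.toSubmodule hU'.2.eq_top)⟩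
    have hsum := Submodule.finrank_add_eq_of_isCompl hc
    have hpos : ∀ {W : Subrepresentation ρ}, W ≠ ⊥ → 0 < finrank ℂ W.toSubmodule := fun {W} hW => by
      rw [Nat.pos_iff_ne_zero]
      intro h0
      exact hW (Subrepresentation.toSubmodule_injective (Submodule.finrank_eq_zero.1 h0))
    have hU'0 : U' ≠ ⊥ := fun e => hU1 (by simpa [e] using hU'.sup_eq_top)
    have h0 := hpos hU0
    have h1 := hpos hU'0
    by_cases ha : ∃ a, U.toRepresentation a ≠ 1
    · have := ih _ (by omega) U.toSubmodule U.toRepresentation rfl ha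
      omega
    by_cases hb : ∃ a, U'.toRepresentation a ≠ 1
    · have := ih _ (by omega) U'.toSubmodule U'.toRepresentation rfl hb
      omega
    push Not at ha hb
    exfalso
    apply hg
    apply LinearMap.ext
    intro v
    obtain ⟨a, ha', b, hb', rfl⟩ : ∃ a ∈ U.toSubmodule, ∃ b ∈ U'.toSubmodule, a + b = v :=
      Submodule.mem_sup.1 (by rw [hc.sup_eq_top]; trivial)
    have e1 : ρ g a = a := congrArg Subtype.val (LinearMap.congr_fun (ha g) ⟨a, ha'⟩)
    have e2 : ρ g b = b := congrArg Subtype.val (LinearMap.congr_fun (hb g) ⟨b, hb'⟩)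
    simp [e1, e2]

variable {F : Type u} [Field F] [Fintype F] [DecidableEq F]

theorem card_annihilator {n : ℕ} (hn : 2 ≤ n) {a : Fin n → F} (ha : a ≠ 0) :
    (Finset.univ.filter fun φ : Fin n → F => φ ⬝ᵥ a = 0).card = Fintype.card F ^ (n - 1) := by
  set i : Fin n := ⟨0, by omega⟩
  obtain ⟨A, hA⟩ := CrossChar.sl_transitive hn (Pi.single i 1) a (by simp) ha
  rw [← Level.card_fixed (F := F) (i := i), ← Fintype.card_subtype, ← Fintype.card_subtype]
  have key : ∀ φ : Fin n → F, (φ ᵥ* (A : Matrix (Fin n) (Fin n) F)) i = φ ⬝ᵥ a := fun φ => by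
    rw [← hA, dotProduct_mulVec, dotProduct_single, mul_one]
  refine Fintype.card_congr
    { toFun := fun φ => ⟨φ.1 ᵥ* (A : Matrix (Fin n) (Fin n) F), by rw [key]; exact φ.2⟩
      invFun := fun ψ => ⟨ψ.1 ᵥ* ((A⁻¹ : Matrix.SpecialLinearGroup (Fin n) F) : Matrix (Fin n) (Fin n) F), by
        rw [← key, vecMul_vecMul, ← Matrix.SpecialLinearGroup.coe_mul, inv_mul_cancel,
          Matrix.SpecialLinearGroup.coe_one, vecMul_one]; exact ψ.2⟩
      left_inv := fun φ => Subtype.ext (by
        simp only [vecMul_vecMul, ← Matrix.SpecialLinearGroup.coe_mul, mul_inv_cancel,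
          Matrix.SpecialLinearGroup.coe_one, vecMul_one])
      right_inv := fun ψ => Subtype.ext (by
        simp only [vecMul_vecMul, ← Matrix.SpecialLinearGroup.coe_mul, inv_mul_cancel,
          Matrix.SpecialLinearGroup.coe_one, vecMul_one]) }

/-- The class of transvections. -/
noncomputable def tclass (F : Type u) [Field F] [Fintype F] [DecidableEq F] (m : ℕ) (hm : 2 ≤ m) :
    Finset (Matrix.SpecialLinearGroup (Fin (m + 1)) F) :=
  @Finset.filter _ (fun g => IsConj ((levelSL F m hm).x (Pi.single ⟨0, by omega⟩ 1)) g)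
    (fun _ => _root_.Classical.propDecidable _) Finset.univ

theorem mem_tclass {m : ℕ} (hm : 2 ≤ m) {g : Matrix.SpecialLinearGroup (Fin (m + 1)) F} :
    g ∈ tclass F m hm ↔ IsConj ((levelSL F m hm).x (Pi.single ⟨0, by omega⟩ 1)) g := by
  classical
  simp [tclass]

theorem toGL_slTv {n : ℕ} (b χ : Fin n → F) :
    Matrix.SpecialLinearGroup.toGL (slTv b χ) = tv b χ := Units.ext rfl

theorem card_tclass {m : ℕ} (hm : 2 ≤ m) :
    (tclass F m hm).card * (Fintype.card F - 1) =
      (Fintype.card F ^ (m + 1) - 1) * (Fintype.card F ^ m - 1) := by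
  classical
  set P : Finset ((_ : Fin (m + 1) → F) × (Fin (m + 1) → F)) :=
    (Finset.univ.erase (0 : Fin (m + 1) → F)).sigma fun a =>
      (Finset.univ.filter fun φ : Fin (m + 1) → F => φ ⬝ᵥ a = 0).erase 0 with hP
  have hmem : ∀ p, p ∈ P ↔ p.1 ≠ 0 ∧ p.2 ≠ 0 ∧ p.2 ⬝ᵥ p.1 = 0 := fun p => by
    simp [hP]
  have hcP : P.card = (Fintype.card F ^ (m + 1) - 1) * (Fintype.card F ^ m - 1) := by
    rw [hP, Finset.card_sigma, Finset.sum_congr rfl (g := fun _ => Fintype.card F ^ m - 1)
      (fun a ha => by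
        rw [Finset.card_erase_of_mem (by simp), card_annihilator (by omega)
          (Finset.ne_of_mem_erase ha), Nat.add_sub_cancel]),
      Finset.sum_const, Finset.card_erase_of_mem (Finset.mem_univ _), Finset.card_univ, card_vec,
      smul_eq_mul]
  have he : (Pi.single ⟨0, by omega⟩ 1 : Fin m → F) ≠ 0 := by simp
  set f : ((_ : Fin (m + 1) → F) × (Fin (m + 1) → F)) → Matrix.SpecialLinearGroup (Fin (m + 1)) F :=
    fun p => slTv p.1 p.2 with hf
  have hto : ∀ p ∈ P, f p ∈ tclass F m hm := fun p hp => by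
    obtain ⟨h1, h2, h3⟩ := (hmem p).1 hp
    exact (mem_tclass hm).2 (exists_conj_tv hm h1 h2 h3 he)
  have hfib : ∀ s ∈ tclass F m hm, (P.filter fun p => f p = s).card = Fintype.card F - 1 := by
    intro s hs
    obtain ⟨c, hc⟩ := isConj_iff.1 ((mem_tclass hm).1 hs)
    set e : Fin (m + 1) → F := ext0 (Pi.single ⟨0, by omega⟩ 1) with hedef
    set C : GL (Fin (m + 1)) F := Matrix.SpecialLinearGroup.toGL c with hC
    have h0 : eLast (F := F) m ⬝ᵥ e = 0 := eLast_dot_ext0 _
    set a := (C : Matrix (Fin (m + 1)) (Fin (m + 1)) F) *ᵥ e with hadef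
    set φ := eLast (F := F) m ᵥ* ((C⁻¹ : GL (Fin (m + 1)) F) : Matrix (Fin (m + 1)) (Fin (m + 1)) F)
      with hφdef
    have hs' : s = slTv a φ := by
      apply Matrix.SpecialLinearGroup.toGL_injective
      rw [toGL_slTv, hadef, hφdef, ← tv_conj C h0, ← hc, map_mul, map_mul, map_inv, ← hC,
        ← slTv_eq_x hm, toGL_slTv]
    have h3 : φ ⬝ᵥ a = 0 := by rw [hadef, hφdef, vecMul_inv_dot, h0]
    have ha : a ≠ 0 := by
      intro h
      apply he
      have he0 : e = 0 := gl_mulVec_injective C (by simpa [hadef] using h)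
      funext k
      simpa [hedef, ext0] using congrFun he0 k.castSucc
    have hφ : φ ≠ 0 := by
      intro h
      have := congrArg (fun z => z ᵥ* (C : Matrix (Fin (m + 1)) (Fin (m + 1)) F)) h
      simp only [hφdef, vecMul_vecMul, ← Units.val_mul, inv_mul_cancel, Units.val_one, vecMul_one,
        zero_vecMul] at this
      simpa [eLast] using congrFun this (Fin.last m)
    rw [← Fintype.card_units, ← Finset.card_univ]
    symm
    refine Finset.card_bij (fun u _ => (⟨(u : F) • a, ((u⁻¹ : Fˣ) : F) • φ⟩ :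
      (_ : Fin (m + 1) → F) × (Fin (m + 1) → F))) ?_ ?_ ?_
    · intro u _
      rw [Finset.mem_filter, hmem]
      refine ⟨⟨smul_ne_zero u.ne_zero ha, smul_ne_zero (Units.ne_zero _) hφ, by simp [h3]⟩, ?_⟩
      rw [hs']
      apply Matrix.SpecialLinearGroup.toGL_injective
      simp only [hf, toGL_slTv]
      rw [tv_smul_center _ (by simp [h3]), smul_smul, ← Units.val_mul, mul_inv_cancel, Units.val_one,
        one_smul]
    · intro u _ u' _ h
      simp only [Sigma.mk.injEq, heq_eq_eq] at h
      exact Units.ext (smul_left_injective F ha h.1)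
    · rintro ⟨a', φ'⟩ hp
      rw [Finset.mem_filter, hmem] at hp
      obtain ⟨⟨ha', hφ', h3'⟩, hp'⟩ := hp
      have hM : vecMulVec a' φ' = vecMulVec a φ := by
        have := congrArg (fun g : Matrix.SpecialLinearGroup (Fin (m + 1)) F =>
          (g : Matrix (Fin (m + 1)) (Fin (m + 1)) F)) (hp'.trans hs')
        simp only [hf, slTv] at this
        rw [tv_val h3', tv_val h3] at this
        exact add_left_cancel this
      obtain ⟨k, hk⟩ := Function.ne_iff.1 hφ'
      obtain ⟨l, hl⟩ := Function.ne_iff.1 ha'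
      simp only [Pi.zero_apply] at hk hl
      have hent : ∀ r c, a' r * φ' c = a r * φ c := fun r c => by
        simpa [vecMulVec_apply] using congrFun (congrFun hM r) c
      have hu : φ k / φ' k ≠ 0 := by
        refine div_ne_zero (fun h => ?_) hk
        have := hent l k
        rw [h, mul_zero, mul_eq_zero] at this
        exact this.elim hl hk
      refine ⟨Units.mk0 _ hu, Finset.mem_univ _, ?_⟩
      have e1 : (φ k / φ' k) • a = a' := by
        funext r
        rw [Pi.smul_apply, smul_eq_mul]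
        field_simp
        linear_combination -(hent r k)
      simp only [Sigma.mk.injEq, heq_eq_eq, Units.val_mk0, Units.val_inv_eq_inv_val]
      refine ⟨e1, ?_⟩
      funext c
      rw [Pi.smul_apply, smul_eq_mul]
      refine mul_left_cancel₀ hl ?_
      rw [hent l c, ← e1, Pi.smul_apply, smul_eq_mul]
      have hk' : φ k ≠ 0 := fun h => hu (by rw [h, zero_div])
      field_simp
  rw [← hcP, Finset.card_eq_sum_card_fiberwise hto, Finset.sum_congr rfl hfib, Finset.sum_const,
    smul_eq_mul]

/-- The degree divides the class size times `q^m`. -/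
theorem dvd_of_step {m : ℕ} (hm : 2 ≤ m) {V : Type v} [AddCommGroup V] [Module ℂ V]
    [FiniteDimensional ℂ V] {ρ : Representation ℂ (Matrix.SpecialLinearGroup (Fin (m + 1)) F) V}
    (hirr : ρ.IsIrreducible) (hb1 : (levelSL F m hm).b ρ hm = 1) :
    finrank ℂ V ∣ (tclass F m hm).card * Fintype.card F ^ m := by
  classical
  haveI := hirr
  have hχ := Char.isIrrCharacter_character ρ
  set e : Fin m → F := Pi.single ⟨0, by omega⟩ 1
  set t := (levelSL F m hm).x e
  set S := tclass F m hm with hS
  have hconst : ∀ g ∈ S, ρ.character g = ρ.character t := fun g hg => by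
    obtain ⟨c, rfl⟩ := isConj_iff.1 ((mem_tclass hm).1 hg)
    exact ρ.char_conj _ _
  have hinv : ∀ g h : Matrix.SpecialLinearGroup (Fin (m + 1)) F,
      (if h * g * h⁻¹ ∈ S then (1 : ℤ) else 0) = if g ∈ S then 1 else 0 := by
    intro g h
    refine if_congr ?_ rfl rfl
    rw [hS, mem_tclass, mem_tclass]
    have : IsConj g (h * g * h⁻¹) := isConj_iff.2 ⟨h, rfl⟩
    exact ⟨fun h' => h'.trans this.symm, fun h' => h'.trans this⟩
  have h1 := Char.isIntegral_sum_int_mul_div hχ (f := fun g => if g ∈ S then (1 : ℤ) else 0) hinv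
  have hsum : ∑ g, (((if g ∈ S then (1 : ℤ) else 0) : ℤ) : ℂ) * ρ.character g =
      (S.card : ℂ) * ρ.character t := by
    simp only [Int.cast_ite, Int.cast_one, Int.cast_zero, ite_mul, one_mul, zero_mul]
    rw [Finset.sum_ite_mem, Finset.univ_inter, Finset.sum_congr rfl hconst, Finset.sum_const,
      nsmul_eq_mul]
  have hfr := (levelSL F m hm).finrank_eq (ρ := ρ) hm
  rw [hb1, mul_one] at hfr
  have hk0 : finrank ℂ V ≠ 0 := by
    have := Nat.one_lt_pow (show m ≠ 0 by omega) (Fintype.one_lt_card (α := F))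
    omega
  rw [hsum, Representation.char_one, (levelSL F m hm).char_x_eq hm (by simp [e]), hb1] at h1
  refine Char.dvd_of_isIntegral_div hk0 ?_
  have h2 : IsIntegral ℤ ((S.card : ℤ) : ℂ) := isIntegral_algebraMap
  refine (congrArg (IsIntegral ℤ) ?_).mp (h2.sub h1)
  rw [hfr]
  have hq : (1 : ℕ) ≤ Fintype.card F ^ m := Nat.one_le_pow m _ Fintype.card_pos
  have hne : (((mult ρ (levelSL F m hm).x 0 + (Fintype.card F ^ m - 1) : ℕ)) : ℂ) ≠ 0 :=
    Nat.cast_ne_zero.2 (hfr ▸ hk0)
  push_cast [Nat.cast_sub hq] at hne ⊢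
  field_simp
  ring

/-- The Levi pairs of `SL` receive `GL`. -/
noncomputable def toDetOne (F : Type u) [Field F] (m : ℕ) : GL (Fin m) F →* detOne F m where
  toFun A := ⟨(A, (Matrix.GeneralLinearGroup.det A)⁻¹), by
    rw [mem_detOne, ← Matrix.GeneralLinearGroup.val_det_apply, ← Units.val_mul, mul_inv_cancel,
      Units.val_one]⟩
  map_one' := Subtype.ext (by simp)
  map_mul' A B := Subtype.ext (by simp [mul_comm])

theorem toDetOne_tv {m : ℕ} (hm : 2 ≤ m) (a φ : Fin m → F) :
    toDetOne F m (tv a φ) = (levelSL F m hm).tt a φ := by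
  refine Subtype.ext (Prod.ext rfl ?_)
  show (Matrix.GeneralLinearGroup.det (tv a φ : GL (Fin m) F))⁻¹ = 1
  rw [inv_eq_one]
  exact Units.ext (by simpa using tv_det a φ)

/-- The pairs of `GL` receive `GL`. -/
noncomputable def toTop (F : Type u) [Field F] (m : ℕ) (hm : 2 ≤ m) :
    GL (Fin m) F →* (levelGL F m hm).H where
  toFun A := ⟨(A, 1), trivial⟩
  map_one' := rfl
  map_mul' A B := Subtype.ext (by simp)

theorem toTop_tv {m : ℕ} (hm : 2 ≤ m) (a φ : Fin m → F) :
    toTop F m hm (tv a φ) = (levelGL F m hm).tt a φ := rfl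

namespace Level

variable {Γ : Type w} [Group Γ] {m : ℕ} (L : Level F Γ (m + 1))
variable {V : Type v} [AddCommGroup V] [Module ℂ V] [FiniteDimensional ℂ V]
variable {ρ : Representation ℂ Γ V}

/-- The fixed space as a representation of `GL (m+1)`, one level down. -/
noncomputable def next (g : GL (Fin (m + 1)) F →* L.H) (ρ : Representation ℂ Γ V) :
    Representation ℂ (GL (Fin (m + 1)) F) (LinearMap.range (proj ρ L.x 0)) :=
  (L.fixRep ρ).comp g

/-- The second level exists as soon as the fixed space is small. -/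
theorem next_step (g : GL (Fin (m + 1)) F →* L.H) (hg : ∀ a φ, g (tv a φ) = L.tt a φ) (hm : 2 ≤ m)
    (htor : L.HasTorus) (hb1 : L.b ρ (by omega) = 1)
    (hc : finrank ℂ (LinearMap.range (proj ρ L.x 0)) < 2 * (Fintype.card F ^ m - 1)) :
    (levelGL F m hm).b (L.next g ρ) hm = 1 ∧
      finrank ℂ (LinearMap.range (proj ρ L.x 0)) =
        finrank ℂ (LinearMap.range (proj (L.next g ρ) (levelGL F m hm).x 0)) +
          (Fintype.card F ^ m - 1) := by
  set L' := levelGL F m hm
  let i : Fin m := ⟨0, by omega⟩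
  let j : Fin m := ⟨1, by omega⟩
  have hij : i ≠ j := by simp [i, j]
  have hd : (Pi.single j (1 : F) : Fin m → F) ⬝ᵥ Pi.single i 1 = 0 := by simp [hij.symm]
  set e : Fin m → F := Pi.single i 1
  have hv : L.next g ρ (L'.x e) ≠ 1 := by
    intro h
    obtain ⟨c, hc'⟩ := isConj_iff.1 (L'.conj_tv e (Pi.single j 1) (by simp [e]) (by simp) hd e (by simp [e]))
    have h1 : (L.next g ρ).character (L'.lev ⟨(tv e (Pi.single j 1), 1), L'.tv_mem _ _⟩) =
        (finrank ℂ (LinearMap.range (proj ρ L.x 0)) : ℂ) := by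
      rw [← hc', Representation.char_conj, Representation.character, h, ← map_one (L.next g ρ)]
      exact Representation.char_one _
    have h2 : L'.lev ⟨(tv e (Pi.single j 1), 1), L'.tv_mem _ _⟩ =
        tv (Pi.single i.castSucc 1) (Pi.single j.castSucc 1) := by
      show glBlk (tv e (Pi.single j 1)) 0 1 = _
      rw [glBlk_tv hd]
      congr 1 <;> funext k <;> induction k using Fin.lastCases <;>
        simp [e, ext0, Pi.single_apply, (Fin.castSucc_lt_last _).ne', (Fin.castSucc_lt_last _).ne]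
    rw [h2] at h1
    have h3 : (L.next g ρ).character (tv (Pi.single i.castSucc 1) (Pi.single j.castSucc 1)) =
        (L.fixRep ρ).character (L.t i.castSucc j.castSucc 1) := by
      show (L.fixRep ρ).character (g (tv _ _)) = _
      rw [hg]; rfl
    rw [h3, L.char_fix_t (by omega) htor hb1 (by simp [i]) (by simp [j]) one_ne_zero, sub_eq_self] at h1
    exact qm_ne (F := F) _ h1
  exact L'.step hm hv hc

end Level

end Cfsg.Agent.Lib.MinDegSL
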